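import Mathlib
import Cfsg.Agent.H2.Frob
import Cfsg.Agent.H2.Invol
import Cfsg.Agent.H3.ZJApp
import Cfsg.Agent.H1.Burnside

/-! Thompson factorization for `p = 2` in `2`-solvable `3'`-groups; `{p, q}`-subgroups of
`p`-solvable groups. -/

namespace CfsgH2
open Subgroup Cfsg CfsgL0
open scoped commutatorElement

theorem card_lt_index_fixAut {V : Type*} [Group V] [Finite V] (hc : IsMulCommutative V)
    (hV : IsPGroup 2 V) {T : Subgroup (MulAut V)} (h2 : ¬ 2 ∣ Nat.card T) (h3 : ¬ 3 ∣ Nat.card T)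
    (A : Subgroup (MulAut V)) (hA : IsElementaryAbelian 2 A)
    (hAT : A ≤ normalizer (T : Set (MulAut V))) (hf : A ⊓ centralizer (T : Set (MulAut V)) = ⊥) :
    A = ⊥ ∨ Nat.card A < (fixAut A.subtype).index := by
  induction A using WellFoundedLT.induction with
  | ind A ih =>
  refine or_iff_not_imp_left.mpr fun h0 => ?_
  obtain ⟨⟨j, hj⟩, hj1⟩ := ne_bot_iff_exists_ne_one.mp h0
  obtain ⟨x, hxT, hx, hjx, hB⟩ := exists_inverted_prime hA hAT
    (coprime_card_of_isPGroup (isPGroup_of_forall_pow hA.2) h2) hj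
    fun h => hj1 (Subtype.ext (mem_bot.mp (hf ▸ mem_inf.mpr ⟨hj, h⟩)))
  have hxd : orderOf x ∣ Nat.card T := orderOf_dvd_natCard T hxT
  have hx2 : (orderOf x).Coprime 2 :=
    (Nat.coprime_primes hx Nat.prime_two).mpr fun e => h2 (e ▸ hxd)
  have hx5 : 5 ≤ orderOf x := hx.five_le_of_ne_two_of_ne_three (fun e => h2 (e ▸ hxd))
    fun e => h3 (e ▸ hxd)
  have hx1 : x ≠ 1 := fun e => by simp [e] at hx5
  have hjj : j * j = 1 := by rw [← pow_two, hA.2 j hj]
  set B := A ⊓ centralizer {x} with hBd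
  have hjB : j ∉ B := fun h => hx1 (eq_one_of_pow_coprime (pow_orderOf_eq_one x) (by
    rw [pow_two, ← eq_inv_iff_mul_eq_one, ← hjx, ← h.2 x rfl, mul_inv_cancel_right]) hx2)
  have hBA : B < A := lt_of_le_of_ne inf_le_left fun e => hjB (e ▸ hj)
  have hAB : A = B ⊔ zpowers j := le_antisymm (fun i hi => (hB i hi).elim
    (fun h => mem_sup_left (mem_inf.mpr ⟨hi, h⟩)) fun h => by
      rw [← mul_one i, ← hjj, ← mul_assoc]
      exact mul_mem (mem_sup_left (mem_inf.mpr ⟨mul_mem hi hj, h⟩)) (mem_sup_right (mem_zpowers j)))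
    (sup_le inf_le_left (zpowers_le.mpr hj))
  have hjN : j ∈ centralizer (B : Set (MulAut V)) := fun b hb =>
    isMulCommutative_iff.mp hA.1 b hb.1 j hj
  have c1 : Nat.card A = Nat.card B * 2 := by
    rw [hAB, card_sup_zpowers (centralizer_le_normalizer _ hjN) Nat.prime_two
      (by rw [hA.2 j hj]; exact one_mem _) hjB]
  set U := fixAut B.subtype
  set F := fixAut A.subtype
  have c2 : Nat.card B ≤ U.index := by
    rcases ih B hBA (isElementaryAbelian_of_le inf_le_left hA) (inf_le_left.trans hAT)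
      (eq_bot_iff.mpr (hf ▸ inf_le_inf_right _ inf_le_left)) with h | h
    · rw [h, card_bot]; exact Nat.pos_of_ne_zero index_ne_zero_of_finite
    · exact h.le
  have hFU : F ≤ U := fun v hv b => hv ⟨b, b.2.1⟩
  have hxU : ∀ y ∈ zpowers x, ∀ v ∈ U, y v ∈ U := fun y hy v hv b => by
    have e : y * b = b * y := (zpowers_le.mpr (show x ∈ centralizer (B : Set (MulAut V)) from
      fun b hb => (hb.2 x rfl).symm) hy b b.2).symm
    change (b * y : MulAut V) v = _
    rw [← e]
    exact congrArg y (hv b)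
  have c3 : 3 ≤ F.relIndex U := by
    by_contra hlt
    set W := commAut (zpowers x).subtype ⊤
    have hWC := commAut_inf_fixAut (zpowers x).subtype (K := ⊤) inferInstance (fun _ _ _ => trivial)
      (coprime_card_of_coprime_p (isPGroup_top hV) (Nat.card_zpowers x ▸ hx2))
    have hW : ∀ b : B, ∀ w ∈ W, B.subtype b w ∈ W := fun b => (commAut_le (L := W.comap
      (b : MulAut V).toMonoidHom)).mpr fun v _ y => by
        have e : (y : MulAut V) * b = b * y := (zpowers_le.mpr
          (show x ∈ centralizer (B : Set (MulAut V)) from fun b hb => (hb.2 x rfl).symm) y.2 b b.2).symm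
        have := mem_commAut (zpowers x).subtype (mem_top ((b : MulAut V) v)) y
        rw [mem_comap, map_mul, map_inv]
        exact (DFunLike.congr_fun e v : (y : MulAut V) ((b : MulAut V) v) = _) ▸ this
    haveI : Nontrivial W := (nontrivial_iff_ne_bot W).mpr fun e => hx1 (MulEquiv.ext fun v =>
      (inv_mul_eq_one.mp (mem_bot.mp (e.le (mem_commAut _ (mem_top v) ⟨x, mem_zpowers x⟩)))).symm)
    obtain ⟨w, hw1, -, hw⟩ := exists_fixed_order_p (hV.to_subgroup W)
      (isPGroup_of_forall_pow (H := B) fun b hb => hA.2 b hb.1) (restrAut B.subtype W hW)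
    have hwU : (w : V) ∈ U := fun b => congrArg Subtype.val (hw b)
    have d1 : orderOf x ≤ Nat.card (W ⊓ U : Subgroup V) := by
      rw [← Nat.card_zpowers]
      refine Nat.card_le_card_of_injective (fun y => ⟨(y : MulAut V) w, mem_inf.mpr
        ⟨commAut_invariant (zpowers x).subtype ⊤ y w w.2, hxU y y.2 w hwU⟩⟩) fun y z e => ?_
      by_contra hne
      haveI := Fact.mk hx
      have := le_of_card_prime (N := MulAction.stabilizer (MulAut V) (w : V)) (Nat.card_zpowers x)
        (z⁻¹ * y).2 (by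
          change (z : MulAut V)⁻¹ ((y : MulAut V) w) = w
          rw [show (y : MulAut V) w = (z : MulAut V) w from congrArg Subtype.val e]
          simp) fun e => hne (inv_mul_eq_one.mp (Subtype.ext e)).symm
      exact hw1 (Subtype.ext (mem_bot.mp (hWC ▸ mem_inf.mpr ⟨w.2, fun y => this y.2⟩)))
    have hUx : U.map x.toMonoidHom = U := eq_of_le_of_card_ge
      (by rintro _ ⟨v, hv, rfl⟩; exact hxU x (mem_zpowers x) v hv)
      (card_map_of_injective x.injective).ge
    have d2 : (W ⊓ U) ⊓ (F ⊓ F.map x.toMonoidHom) = ⊥ := eq_bot_iff.mpr fun v hv => by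
      obtain ⟨⟨h1, -⟩, h2, u, hu, rfl⟩ := hv
      refine hWC ▸ mem_inf.mpr ⟨h1, fun y => zpowers_le.mpr
        (CfsgH1.mem_of_pow_mem_of_coprime (K := MulAction.stabilizer (MulAut V) _) hx2 ?_) y.2⟩
      have e1 : j u = u := hu ⟨j, hj⟩
      have e2 : j (x u) = x u := h2 ⟨j, hj⟩
      have e3 : x * (j * x) = j := by
        rw [mul_inv_eq_iff_eq_mul.mp hjx, mul_inv_cancel_left]
      have e4 : x (x u) = u := by rw [← e2, ← MulAut.mul_apply, ← MulAut.mul_apply, mul_assoc, e3, e1]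
      change (x ^ 2) (x u) = x u
      rw [pow_two, MulAut.mul_apply, e4]
    have d3 := card_inf_mul_relIndex (W ⊓ U) (F ⊓ F.map x.toMonoidHom)
    rw [d2, card_bot, one_mul] at d3
    have d4 := relIndex_le_of_le_right (H := F ⊓ F.map x.toMonoidHom) (inf_le_right : W ⊓ U ≤ U)
      index_ne_zero_of_finite
    have d5 := relIndex_inf_le (H := F) (K := F.map x.toMonoidHom) (L := U)
    have d6 : (F.map x.toMonoidHom).relIndex U = F.relIndex U := by
      conv_lhs => rw [← hUx]
      exact relIndex_map_map_of_injective _ _ x.injective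
    rw [d6] at d5
    nlinarith
  have := relIndex_mul_index hFU
  have := Nat.card_pos (α := B)
  nlinarith

/-- Thompson factorization for `p = 2`. -/
theorem JJ_le_centralizer_VZ_two {G : Type*} [Group G] [Finite G] (hG : IsPSolvable 2 G)
    (h3 : ¬ 3 ∣ Nat.card G) {S : Subgroup G} (hS : CfsgH1.IsSylowIn 2 S ⊤)
    (hc : CfsgH3.Constr 2 G) : CfsgH3.JJ 2 S ≤ centralizer (CfsgH3.VZ 2 S : Set G) := by
  refine CfsgH3.JJ_le_iff.mpr fun A hA => ?_
  set V := CfsgH3.VZ 2 S
  have hV := CfsgH3.abE_VZ hS hc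
  let φ : G →* MulAut V := MulAut.conjNormal
  have hk : ∀ g, φ g = 1 ↔ g ∈ centralizer (V : Set G) := fun g =>
    ⟨fun h v hv => (mul_inv_eq_iff_eq_mul.mp (show g * v * g⁻¹ = v from
      congrArg Subtype.val (DFunLike.congr_fun h (⟨v, hv⟩ : V)))).symm,
      fun h => MulEquiv.ext fun v => Subtype.ext (mul_inv_eq_iff_eq_mul.mpr (h v v.2).symm)⟩
  have h0 : pCore 2 φ.range = ⊥ := eq_bot_iff.mpr fun y hy => by
    obtain ⟨g, rfl⟩ := φ.rangeRestrict_surjective y
    refine Subtype.ext ((hk g).mpr (CfsgH3.InOp.mem_centralizer_VZ hS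
      ⟨(pCore 2 φ.range).comap φ.rangeRestrict, hy, le_top, le_normalizer_of_normal,
        fun x hx => ?_⟩))
    obtain ⟨k, hk'⟩ := IsPGroup.exists_pow_eq_one (isPGroup_pCore _ 2) hx
    exact ⟨k, (hk _).mp (by rw [map_pow]; exact congrArg Subtype.val hk')⟩
  have hC := centralizer_pPrimeCore_le (isPSolvable_of_surjective hG _ φ.rangeRestrict_surjective) h0
  have hT : Nat.card ((pPrimeCore 2 φ.range).map φ.range.subtype) =
      Nat.card (pPrimeCore 2 φ.range) := card_map_of_injective φ.range.subtype_injective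
  have hAe : IsElementaryAbelian 2 (A.map φ) := isElementaryAbelian_map ⟨hA.comm, hA.1.2.2⟩ φ
  rcases card_lt_index_fixAut hV.2.1 (isPGroup_of_forall_pow hV.2.2)
    (hT ▸ not_dvd_card_pPrimeCore _ 2) (fun h => h3 ((hT ▸ h).trans
      ((card_subgroup_dvd_card _).trans (card_range_dvd φ)))) (A.map φ) hAe
    ((map_le_range _ _).trans (CfsgH2.le_normalizer_map_subtype _)) (eq_bot_iff.mpr fun a ha => by
      obtain ⟨⟨g, hg, rfl⟩, h2⟩ := ha
      have h4 := hC (show (⟨φ g, g, rfl⟩ : φ.range) ∈ centralizer _ from fun y hy =>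
        Subtype.ext (h2 _ ⟨y, hy, rfl⟩))
      exact congrArg Subtype.val (CfsgH1.eq_one_of_pow_of_coprime (p := 2) (k := 1)
        (Subtype.ext (hAe.2 _ ⟨g, hg, rfl⟩)) (CfsgH1.coprime_orderOf_of_mem
          (not_dvd_card_pPrimeCore _ 2) h4))) with h | h
  · exact fun a ha => (hk a).mp (mem_bot.mp (h.le ⟨a, ha, rfl⟩))
  exfalso
  have hle : A ⊓ φ.ker ≤ centralizer (V : Set G) := fun a ha => (hk a).mp ha.2
  have c1 := hA.2 _ (hV.sup (hA.1.of_le inf_le_left) hle)
  have c2 := card_sup_mul_card_inf (H := V) (K := A ⊓ φ.ker)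
    ((le_centralizer_iff.mp hle).trans (centralizer_le_normalizer _))
  have c3 := card_inf_mul_relIndex A φ.ker
  rw [relIndex_ker] at c3
  have c4 : Nat.card (V ⊓ (A ⊓ φ.ker) : Subgroup G) ≤ Nat.card (fixAut (A.map φ).subtype) := by
    rw [← card_map_of_injective (K := fixAut _) V.subtype_injective]
    refine card_le_of_le fun v hv => ⟨⟨v, hv.1⟩, ?_, rfl⟩
    rintro ⟨_, a, ha, rfl⟩
    exact Subtype.ext (mul_inv_eq_iff_eq_mul.mpr (isMulCommutative_iff.mp hA.comm a ha v hv.2.1))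
  have c5 := (fixAut (A.map φ).subtype).card_mul_index
  have p1 := Nat.card_pos (α := (A ⊓ φ.ker : Subgroup G))
  have p2 := Nat.card_pos (α := fixAut (A.map φ).subtype)
  have := Nat.mul_le_mul c1 c4
  rw [c2, ← c3, ← c5] at this
  nlinarith [Nat.mul_pos p1 p2]

/-- In a `p`-solvable group a Sylow `p`-subgroup lies in a `{p, q}`-subgroup of order divisible
by `q`. -/
theorem exists_two_primes_ge {p q : ℕ} [hp : Fact p.Prime] [hq : Fact q.Prime] (hpq : p ≠ q)
    (n : ℕ) :
    ∀ (G : Type*) [Group G] [Finite G], Nat.card G = n → IsPSolvable p G → q ∣ Nat.card G →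
    ∀ S : Subgroup G, CfsgH1.IsSylowIn p S ⊤ → ∃ L : Subgroup G, S ≤ L ∧ q ∣ Nat.card L ∧
      IsPi {p, q} (Nat.card L) := by
  induction n using Nat.strong_induction_on with
  | _ n ih =>
  intro G _ _ hn hG hqG S hS
  have hP : ∀ {r : ℕ} [Fact r.Prime] {K : Subgroup G}, r ∈ ({p, q} : Set ℕ) → IsPGroup r K →
      IsPi {p, q} (Nat.card K) := fun hr hK =>
    (isPGroup_iff_isPi.mp hK).mono (Set.singleton_subset_iff.mpr hr)
  have key : ∀ N : Subgroup G, N.Normal → N ≠ ⊥ → ¬ q ∣ Nat.card N → ∃ L : Subgroup G, S ≤ L ∧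
      N ≤ L ∧ q ∣ N.relIndex L ∧ IsPi {p, q} (N.relIndex L) := fun N _ h0 hN => by
    obtain ⟨L, h1, h2, h3⟩ := ih _ (hn ▸ card_quotient_lt h0) (G ⧸ N) rfl
      (isPSolvable_quotient hG N) ((hq.out.dvd_mul.mp (N.card_mul_index ▸ hqG)).resolve_left hN)
      _ (hS.map_top (QuotientGroup.mk'_surjective N))
    have e : N.relIndex (L.comap (QuotientGroup.mk' N)) = Nat.card L := by
      rw [relIndex_eq_card_map, map_comap_eq_self_of_surjective (QuotientGroup.mk'_surjective N)]
    exact ⟨_, map_le_iff_le_comap.mp h1, (QuotientGroup.ker_mk' N).ge.trans (ker_le_comap _ _),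
      e ▸ h2, e ▸ h3⟩
  haveI : Nontrivial G := Finite.one_lt_card_iff_nontrivial.mp
    (hq.out.one_lt.trans_le (Nat.le_of_dvd Nat.card_pos hqG))
  rcases pCore_ne_bot_or_pPrimeCore_ne_bot hG with h | h
  · obtain ⟨L, h1, h2, h3, h4⟩ := key _ inferInstance h
      fun h => hpq (isPGroup_iff_isPi.mp (isPGroup_pCore G p) q hq.out h).symm
    exact ⟨L, h1, h3.trans (relIndex_dvd_card _ _),
      (hP (by simp) (isPGroup_pCore G p)).of_relIndex h2 h4⟩
  have hT := not_dvd_card_pPrimeCore G p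
  by_cases hqT : q ∣ Nat.card (pPrimeCore p G)
  · obtain ⟨Q, hQ, hSQ⟩ := exists_invariant_sylow q (A := S) (H := pPrimeCore p G)
      le_normalizer_of_normal (coprime_card_of_isPGroup hS.pgroup hT)
      (Or.inl (isSolvable_of_isPGroup hS.pgroup))
    refine ⟨S ⊔ Q, le_sup_left, dvd_trans ?_ (card_dvd_of_le le_sup_right),
      IsPi.sup hSQ (hP (by simp) hS.pgroup) (hP (by simp) hQ.2.1)⟩
    rw [hQ.card_eq]
    exact dvd_pow_self q (hq.out.factorization_pos_of_dvd Nat.card_pos.ne' hqT).ne'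
  obtain ⟨L, h1, h2, h3, h4⟩ := key _ inferInstance h hqT
  obtain ⟨M, hM⟩ := exists_right_complement'_of_coprime (N := (pPrimeCore p G).subgroupOf L) (by
    rw [CfsgH2.card_subgroupOf_of_le h2]
    exact (h4.coprime (fun r hr hd => by
      rintro (rfl | rfl)
      exacts [hT hd, hqT hd])).symm)
  have hM1 : Nat.card (M.map L.subtype) = (pPrimeCore p G).relIndex L := by
    rw [card_map_of_injective L.subtype_injective, ← hM.symm.index_eq_card]; rfl
  obtain ⟨R, hR⟩ := CfsgH1.exists_isSylowIn p (M.map L.subtype)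
  have hR' : CfsgH1.IsSylowIn p R L := ⟨hR.le.trans (map_subtype_le M), hR.pgroup, by
    rw [← relIndex_mul_relIndex R _ L hR.le (map_subtype_le M), hp.out.dvd_mul, not_or]
    refine ⟨hR.not_dvd, ?_⟩
    rw [relIndex, subgroupOf, comap_map_eq_self_of_injective L.subtype_injective,
      hM.index_eq_card, CfsgH2.card_subgroupOf_of_le h2]
    exact hT⟩
  obtain ⟨g, -, hg⟩ := hR'.exists_cj_eq (hS.of_le h1 le_top)
  exact ⟨cj g (M.map L.subtype), hg ▸ cj_mono g hR.le, by rw [card_cj, hM1]; exact h3,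
    by rw [card_cj, hM1]; exact h4⟩

end CfsgH2
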