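import Cfsg.Agent.FT.BG4_18
import Cfsg.Agent.FT.BG3_1
import Cfsg.Agent.H2.LinAct
import Cfsg.Agent.H1.Transfer

set_option autoImplicit false

namespace CfsgH2F.Four3
open Subgroup Cfsg CfsgL0 CfsgFT
open scoped commutatorElement

variable {G : Type*} [Group G] [Finite G] {M : Subgroup G} [hMn : M.Normal]

theorem le_norm {A U : Subgroup G} (hU : U ≤ M) (h : ⁅A, M⁆ ≤ U) : A ≤ 𝒩 U :=
  le_normalizer_iff_commutator_le_right.2 ((commutator_mono le_rfl hU).trans h)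

theorem le_cMod' {A U : Subgroup G} (hU : U ≤ M) (h : ⁅A, M⁆ ≤ U) : A ≤ cMod M U :=
  le_cMod_iff.2 ⟨le_norm hU h, h⟩

theorem comm_sup_le {A B U : Subgroup G} (hU : U ≤ M) (h : ⁅A, M⁆ ≤ U) (h' : ⁅B, M⁆ ≤ U) :
    ⁅A ⊔ B, M⁆ ≤ U := (le_cMod_iff.1 (sup_le (le_cMod' hU h) (le_cMod' hU h'))).2

theorem comm_cent_le (U : Subgroup G) : ⁅𝒞 M, M⁆ ≤ U := by
  rw [commutator_eq_bot_iff_le_centralizer.2 le_rfl]; exact bot_le

theorem cop (hM : IsElementaryAbelian 2 M) {J U : Subgroup G} (hJ : Odd #J) (hU : U ≤ M) :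
    (#J).Coprime #U := by
  obtain ⟨n, hn⟩ := IsPGroup.iff_card.1
    (isPGroup_of_isElementaryAbelian (isElementaryAbelian_mono hM hU))
  rw [hn]
  exact Nat.Coprime.pow_right _ (Nat.coprime_two_right.2 hJ)

theorem solvM (hM : IsElementaryAbelian 2 M) {U : Subgroup G} (hU : U ≤ M) : Group.IsSolvable U :=
  CfsgH2.isSolvable_of_isMulCommutative (isElementaryAbelian_mono hM hU).1

theorem faithful (hM : IsElementaryAbelian 2 M) {J U : Subgroup G} (hJ : Odd #J) (hU : U ≤ M)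
    (h : ⁅J, M⁆ ≤ U) : J ⊓ 𝒞 U ≤ 𝒞 M := by
  rw [le_centralizer_iff]
  refine CfsgH2.le_centralizer_of_commutator_le (N := U)
    (cop hM (hJ.of_dvd_nat (card_dvd_of_le inf_le_left)) hU) (Or.inr (solvM hM hU))
    (le_centralizer_iff.1 inf_le_right) ?_
  rw [commutator_comm]
  exact (commutator_mono inf_le_left le_rfl).trans h

theorem relIndex_dvd (hM : IsElementaryAbelian 2 M) {J U : Subgroup G} (hJ : Odd #J) (hU : U ≤ M)
    (h : ⁅J, M⁆ ≤ U) (h16 : #U ≤ 16) : (𝒞 M).relIndex J ∣ 20160 := by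
  obtain ⟨n, hn⟩ := exists_EA_of_isElementaryAbelian (isElementaryAbelian_mono hM hU)
  have h1 := CfsgH2.relIndex_centralizer_dvd_glCard (le_norm hU h) hn.1 hn.2
  have h2 : (𝒞 M).relIndex J = (𝒞 U).relIndex J := by
    rw [← inf_relIndex_left J, ← inf_relIndex_left J (𝒞 U)]
    congr 1
    exact le_antisymm (inf_le_inf_left _ (centralizer_le hU))
      (le_inf inf_le_left (faithful hM hJ hU h))
  rw [h2]
  refine h1.trans ?_
  have : n ≤ 4 := by
    rw [hn.2] at h16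
    exact (Nat.pow_le_pow_iff_right (by norm_num)).1 (h16.trans (by norm_num : 16 ≤ 2 ^ 4))
  interval_cases n <;> decide

theorem irred (hM : IsElementaryAbelian 2 M) {X W : Subgroup G} (hX : Odd #X) (h4 : #⁅X, M⁆ = 4)
    (hW : W ≤ ⁅X, M⁆) (hn : X ≤ 𝒩 W) : W = ⊥ ∨ W = ⁅X, M⁆ := by
  have hVM : ⁅X, M⁆ ≤ M := commutator_le_right _ _
  have hd : #W ∣ 2 ^ 2 := by rw [show 2 ^ 2 = 4 from rfl, ← h4]; exact card_dvd_of_le hW
  obtain ⟨k, hk, hk'⟩ := (Nat.dvd_prime_pow Nat.prime_two).1 hd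
  interval_cases k
  · left; exact card_eq_one.1 hk'
  · left
    have h1 := CfsgH2.relIndex_centralizer_dvd_glCard hn
      (isElementaryAbelian_mono hM (hW.trans hVM)) hk'
    rw [CfsgH2.glCard_two_one, Nat.dvd_one, relIndex_eq_one] at h1
    have h2 := CfsgH2.commutator_inf_centralizer_eq_bot (A := X) (H := M) le_normalizer_of_normal
      (cop hM hX le_rfl) hM.1
    rw [eq_bot_iff, ← h2, commutator_comm]
    exact le_inf hW (le_centralizer_iff.1 h1)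
  · right; exact eq_of_le_of_card_ge hW (by rw [h4, hk']; rfl)

theorem final (hM : IsElementaryAbelian 2 M) {r : ℕ} [hr : Fact r.Prime] (h2 : r ≠ 2)
    {F U V : Subgroup G} (hF : EA r 3 F) (hU : U ≤ M) (hV : V ≤ U) (hn : F ≤ 𝒩 U) (h8 : #U ≤ 8) :
    ¬ IsCyclic (F ⊓ 𝒞 V : Subgroup G) := by
  obtain ⟨n, hn'⟩ := exists_EA_of_isElementaryAbelian (isElementaryAbelian_mono hM hU)
  have h1 := CfsgH2.relIndex_centralizer_dvd_glCard hn hn'.1 hn'.2
  have h3 : (𝒞 U).relIndex F ∣ 168 := by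
    refine h1.trans ?_
    have : n ≤ 3 := by
      rw [hn'.2] at h8
      exact (Nat.pow_le_pow_iff_right (by norm_num)).1 (h8.trans (by norm_num : 8 ≤ 2 ^ 3))
    interval_cases n <;> decide
  obtain ⟨m, hm⟩ := exists_EA_of_isElementaryAbelian
    (isElementaryAbelian_mono hF.1 (inf_le_left : F ⊓ 𝒞 V ≤ F))
  refine hm.not_isCyclic ?_
  by_contra! hlt
  obtain ⟨k, hk⟩ := exists_EA_of_isElementaryAbelian
    (isElementaryAbelian_mono hF.1 (inf_le_left : F ⊓ 𝒞 U ≤ F))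
  have hkm : k ≤ m := by
    have := card_le_of_le (inf_le_inf_left F (centralizer_le hV : 𝒞 U ≤ 𝒞 V))
    rw [hk.2, hm.2] at this
    exact (Nat.pow_le_pow_iff_right hr.out.one_lt).1 this
  have h4 := CfsgH2.card_inf_mul_relIndex F (𝒞 U)
  rw [hk.2, hF.2, show 3 = k + (2 + (1 - k)) by omega, pow_add] at h4
  have h5 := Nat.eq_of_mul_eq_mul_left (pow_pos hr.out.pos k) h4
  have h6 : r ^ 2 ∣ 168 := (Dvd.intro _ (by rw [h5, pow_add])).trans h3
  have h7 : r ≤ 12 := by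
    by_contra! h
    have := Nat.le_of_dvd (by norm_num) h6
    nlinarith
  have := hr.out
  interval_cases r <;> simp_all (config := {decide := true})

theorem comm_cj (k x : G) : ⁅zpowers (k * x * k⁻¹), M⁆ = cj k ⁅zpowers x, M⁆ := by
  rw [cj_commutator, CfsgH1.cj_normal k M, cj, MonoidHom.map_zpowers]; rfl

theorem card_sup_le (hM : IsElementaryAbelian 2 M) {A B : Subgroup G} (hA : A ≤ M) (hB : B ≤ M) :
    #(A ⊔ B) * #(A ⊓ B) = #A * #B :=
  CfsgH2.card_sup_mul_card_inf ((hA.trans (isMulCommutative_iff_le.1 hM.1)).trans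
    ((centralizer_le hB).trans (centralizer_le_normalizer _)))

theorem card_sup_le' (hM : IsElementaryAbelian 2 M) {A B : Subgroup G} (hA : A ≤ M) (hB : B ≤ M)
    (h1 : #A = 4) (h2 : #B = 4) : #(A ⊔ B) ≤ 16 := by
  have := card_sup_le hM hA hB
  have h3 : 0 < #(A ⊓ B) := Nat.card_pos
  rw [h1, h2] at this
  nlinarith

theorem odd_zpowers {H : Subgroup G} (hH : Odd #H) {x : G} (hx : x ∈ H) : Odd #(zpowers x) :=
  hH.of_dvd_nat (card_dvd_of_le (zpowers_le.2 hx))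

theorem not_cent (hM : IsElementaryAbelian 2 M) {x : G} (hx : Odd #(zpowers x))
    (h4 : #⁅zpowers x, M⁆ = 4) : x ∉ 𝒞 ⁅zpowers x, M⁆ := by
  intro h
  have h2 := CfsgH2.commutator_inf_centralizer_eq_bot (A := zpowers x) (H := M)
    le_normalizer_of_normal (cop hM hx le_rfl) hM.1
  rw [commutator_comm, inf_eq_left.2 (le_centralizer_iff.1 (zpowers_le.2 h))] at h2
  rw [h2, card_bot] at h4
  omega

theorem dich (hM : IsElementaryAbelian 2 M) {b : G} {V : Subgroup G} (hb : Odd #(zpowers b))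
    (h4 : #⁅zpowers b, M⁆ = 4) (hV : V ≤ M) (hV4 : #V = 4) (hn : b ∈ 𝒩 V) :
    V = ⁅zpowers b, M⁆ ∨ b ∈ 𝒞 V := by
  have hn' : zpowers b ≤ 𝒩 V := zpowers_le.2 hn
  rcases irred hM hb h4 (inf_le_right : V ⊓ _ ≤ _)
    (CfsgH2.le_normalizer_inf hn' (normalizer_commutator_ge_left _ _)) with h | h
  · right
    rw [← zpowers_le, ← commutator_eq_bot_iff_le_centralizer, eq_bot_iff, ← h]
    exact le_inf (le_normalizer_iff_commutator_le_right.1 hn') (commutator_mono le_rfl hV)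
  · left
    exact (eq_of_le_of_card_ge (inf_eq_right.1 h) (by rw [h4, hV4])).symm

theorem mem_norm_of_comm {x y : G} (h : ⁅y, x⁆ ∈ 𝒞 M) : y ∈ 𝒩 ⁅zpowers x, M⁆ := by
  apply mem_normalizer_of_cj_le
  rw [← comm_cj]
  refine (commutator_mono (?_ : _ ≤ 𝒞 M ⊔ zpowers x) le_rfl).trans
    (comm_sup_le (commutator_le_right _ _) (comm_cent_le _) le_rfl)
  rw [zpowers_le, show y * x * y⁻¹ = ⁅y, x⁆ * x by simp [commutatorElement_def]]
  exact mul_mem_sup h (mem_zpowers x)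

theorem case1 (hM : IsElementaryAbelian 2 M) {P : Subgroup G} (hP : IsPGroup 3 P) {x f : G}
    (hx : x ∈ P) (hf : f ∈ P) (h4 : #⁅zpowers x, M⁆ = 4)
    (hc : f * (f * x * f⁻¹ * x⁻¹) * f⁻¹ = f * x * f⁻¹ * x⁻¹) : f ∈ 𝒩 ⁅zpowers x, M⁆ := by
  haveI : Fact (Nat.Prime 3) := ⟨Nat.prime_three⟩
  have hPo : Odd #P := by
    obtain ⟨n, hn⟩ := IsPGroup.iff_card.1 hP
    rw [hn]; exact Odd.pow (by decide)
  set y := f * x * f⁻¹ with hy
  have hyP : y ∈ P := mul_mem (mul_mem hf hx) (inv_mem hf)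
  have hy4 : #⁅zpowers y, M⁆ = 4 := by rw [hy, comm_cj, card_cj, h4]
  have hJ : zpowers x ⊔ zpowers y ≤ P := sup_le (zpowers_le.2 hx) (zpowers_le.2 hyP)
  have hU : ⁅zpowers x, M⁆ ⊔ ⁅zpowers y, M⁆ ≤ M :=
    sup_le (commutator_le_right _ _) (commutator_le_right _ _)
  have h1 := relIndex_dvd hM (hPo.of_dvd_nat (card_dvd_of_le hJ)) hU
    (comm_sup_le hU le_sup_left le_sup_right)
    (card_sup_le' hM (commutator_le_right _ _) (commutator_le_right _ _) h4 hy4)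
  set J := zpowers x ⊔ zpowers y with hJdef
  have hJp : IsPGroup 3 J := hP.to_le hJ
  have hcomm : ⁅J, J⁆ ≤ J ⊓ 𝒞 M := by
    refine commutator_le_of_card_le_sq hJp inf_le_left
      (CfsgH2.le_normalizer_inf le_normalizer le_normalizer_of_normal) ?_
    rw [← CfsgH2.card_inf_mul_relIndex J (𝒞 M)]
    refine Nat.mul_le_mul_left _ ?_
    obtain ⟨k, hk⟩ := (Nat.dvd_prime_pow Nat.prime_three).1
      ((relIndex_dvd_card' (𝒞 M) J).trans (IsPGroup.iff_card.1 hJp).choose_spec.dvd)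
    rw [hk.2] at h1 ⊢
    refine Nat.pow_le_pow_right (by norm_num) ?_
    by_contra! h
    exact absurd ((pow_dvd_pow 3 h).trans h1) (by norm_num)
  have hxJ : x ∈ J := mem_sup_left (mem_zpowers x)
  have hyJ : y ∈ J := mem_sup_right (mem_zpowers y)
  have hJn : ∀ z ∈ J, ∀ w ∈ J, z ∈ 𝒩 ⁅zpowers w, M⁆ := fun z hz w hw =>
    mem_norm_of_comm (hcomm (commutator_mem_commutator hz hw)).2
  rw [mem_normalizer_iff_cj, ← comm_cj, ← hy]
  by_contra hne
  have hxo := odd_zpowers hPo hx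
  have hyo := odd_zpowers hPo hyP
  have a1 : y ∈ 𝒞 ⁅zpowers x, M⁆ :=
    (dich hM hyo hy4 (commutator_le_right _ _) h4 (hJn y hyJ x hxJ)).resolve_left (Ne.symm hne)
  have a2 : x ∈ 𝒞 ⁅zpowers y, M⁆ :=
    (dich hM hxo h4 (commutator_le_right _ _) hy4 (hJn x hxJ y hyJ)).resolve_left hne
  set z := f * y * f⁻¹ with hz
  have hz' : z = y * x⁻¹ * y := by
    rw [← hc, hz, hy]; group
  have hzJ : z ∈ J := hz' ▸ mul_mem (mul_mem hyJ (inv_mem hxJ)) hyJ
  have hz4 : #⁅zpowers z, M⁆ = 4 := by rw [hz, comm_cj, card_cj, hy4]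
  have hzo := odd_zpowers hPo (hJ hzJ)
  have b1 : ⁅zpowers x, M⁆ = ⁅zpowers z, M⁆ := by
    refine (dich hM hzo hz4 (commutator_le_right _ _) h4 (hJn z hzJ x hxJ)).resolve_right ?_
    intro h
    apply not_cent hM hxo h4
    have := mul_mem (mul_mem a1 (inv_mem h)) a1
    rwa [show y * z⁻¹ * y = x by rw [hz']; group] at this
  have b2 : ⁅zpowers y, M⁆ = ⁅zpowers z, M⁆ := by
    refine (dich hM hzo hz4 (commutator_le_right _ _) hy4 (hJn z hzJ y hyJ)).resolve_right ?_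
    intro h
    apply not_cent hM hyo hy4
    have h2 : (y * x⁻¹) ^ 2 ∈ 𝒞 ⁅zpowers y, M⁆ := by
      have := mul_mem h (inv_mem a2)
      rwa [show z * x⁻¹ = (y * x⁻¹) ^ 2 by rw [hz', sq]; group] at this
    have h3 : y * x⁻¹ ∈ 𝒞 ⁅zpowers y, M⁆ := CfsgH1.mem_of_pow_mem_of_coprime (by
      refine Nat.coprime_two_right.2 ?_
      rw [← Nat.card_zpowers]
      exact odd_zpowers hPo (mul_mem hyP (inv_mem hx))) h2
    simpa using mul_mem h3 a2
  exact hne (b2.trans b1.symm)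

theorem pow_dvd_le {p j : ℕ} (hp : p.Prime) (h2 : p ≠ 2) (h3 : p ≠ 3) (h : p ^ j ∣ 20160) :
    j = 0 ∨ (j = 1 ∧ (p = 5 ∨ p = 7)) := by
  rcases Nat.eq_zero_or_pos j with h0 | h0
  · exact Or.inl h0
  right
  have h1 : p ∣ 2 ^ 6 * 3 ^ 2 * 5 * 7 := (dvd_pow_self p h0.ne').trans h
  have h57 : p = 5 ∨ p = 7 := by
    rcases (hp.dvd_mul).1 h1 with h1 | h1
    · rcases (hp.dvd_mul).1 h1 with h1 | h1
      · rcases (hp.dvd_mul).1 h1 with h1 | h1
        · exact absurd ((Nat.prime_dvd_prime_iff_eq hp Nat.prime_two).1 (hp.dvd_of_dvd_pow h1)) h2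
        · exact absurd ((Nat.prime_dvd_prime_iff_eq hp Nat.prime_three).1 (hp.dvd_of_dvd_pow h1)) h3
      · exact Or.inl ((Nat.prime_dvd_prime_iff_eq hp Nat.prime_five).1 h1)
    · exact Or.inr ((Nat.prime_dvd_prime_iff_eq hp Nat.prime_seven).1 h1)
  refine ⟨?_, h57⟩
  by_contra hj
  have : p ^ 2 ∣ 20160 := (pow_dvd_pow p (by omega)).trans h
  rcases h57 with rfl | rfl <;> norm_num at this

theorem le_sup_of_prime {p : ℕ} [hp : Fact p.Prime] {C L : Subgroup G} [C.Normal]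
    (h : C.relIndex L = p) {c : G} (hc : c ∈ L) (hc' : c ∉ C) : L ≤ C ⊔ zpowers c := by
  have h1 : #(L.map (QuotientGroup.mk' C)) = p := by
    rw [← relIndex_ker, QuotientGroup.ker_mk', h]
  have h2 := eq_zpowers_of_prime_card (h1 ▸ hp.out) (mem_map_of_mem (QuotientGroup.mk' C) hc)
    (by simpa using hc')
  rw [← MonoidHom.map_zpowers] at h2
  have := comap_mono (f := QuotientGroup.mk' C) h2.ge
  rw [comap_map_eq, comap_map_eq, QuotientGroup.ker_mk'] at this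
  exact le_sup_left.trans (this.trans (sup_comm _ _).le)

theorem relIndex_cases (hM : IsElementaryAbelian 2 M) {p : ℕ} [hp : Fact p.Prime] (h2 : p ≠ 2)
    (h3 : p ≠ 3) {L U : Subgroup G} (hL : IsPGroup p L) (hU : U ≤ M) (h : ⁅L, M⁆ ≤ U)
    (h16 : #U ≤ 16) {c : G} (hc : c ∈ L) (hc' : c ∉ 𝒞 M) :
    (𝒞 M).relIndex L = p ∧ (p = 5 ∨ p = 7) := by
  obtain ⟨n, hn⟩ := IsPGroup.iff_card.1 hL
  have h1 := relIndex_dvd hM (hn ▸ (hp.out.odd_of_ne_two h2).pow) hU h h16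
  obtain ⟨k, -, hk⟩ := (Nat.dvd_prime_pow hp.out).1 ((relIndex_dvd_card' (𝒞 M) L).trans hn.dvd)
  rw [hk] at h1
  rcases pow_dvd_le hp.out h2 h3 h1 with rfl | ⟨rfl, h⟩
  · exact absurd (relIndex_eq_one.1 hk hc) hc'
  · exact ⟨by simpa using hk, h⟩

theorem pair (hM : IsElementaryAbelian 2 M) {p : ℕ} [hp : Fact p.Prime] (h2 : p ≠ 2) (h3 : p ≠ 3)
    {H P : Subgroup G} (hH : Odd #H) (hP : IsPGroup p P) (hPH : P ≤ H) {x k : G} (hx : x ∈ H)
    (hxP : x ∈ 𝒩 P) (hk : k ∈ P) (hx3 : x ^ 3 ∈ 𝒞 M) (h4 : #⁅zpowers x, M⁆ = 4)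
    (hc : k * x * k⁻¹ * x⁻¹ ∉ 𝒞 M) :
    #⁅zpowers (k * x * k⁻¹ * x⁻¹), M⁆ ≤ 8 ∧ ⁅zpowers x, M⁆ ≤ ⁅zpowers (k * x * k⁻¹ * x⁻¹), M⁆ := by
  set y := k * x * k⁻¹ with hy
  set c := y * x⁻¹ with hcdef
  have hcP : c ∈ P := by
    rw [hcdef, hy, mul_assoc, mul_assoc, ← mul_assoc x]
    exact mul_mem hk (CfsgH2.conj_mem_of_le_normalizer (zpowers_le.2 hxP) (mem_zpowers x)
      (inv_mem hk))
  have hyH : y ∈ H := mul_mem (mul_mem (hPH hk) hx) (inv_mem (hPH hk))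
  have hy4 : #⁅zpowers y, M⁆ = 4 := by rw [hy, comm_cj, card_cj, h4]
  have hy3 : y ^ 3 ∈ 𝒞 M := by
    rw [hy, conj_pow]; exact Normal.conj_mem inferInstance _ hx3 _
  have hU : ⁅zpowers x, M⁆ ⊔ ⁅zpowers y, M⁆ ≤ M :=
    sup_le (commutator_le_right _ _) (commutator_le_right _ _)
  have h16 := card_sup_le' hM (commutator_le_right _ _) (commutator_le_right _ _) h4 hy4
  set U := ⁅zpowers x, M⁆ ⊔ ⁅zpowers y, M⁆ with hUdef
  set J := zpowers x ⊔ zpowers y with hJdef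
  have hJU : ⁅J, M⁆ ≤ U := comm_sup_le hU le_sup_left le_sup_right
  have hxJ : x ∈ J := mem_sup_left (mem_zpowers x)
  have hyJ : y ∈ J := mem_sup_right (mem_zpowers y)
  have hcJ : c ∈ J := mul_mem hyJ (inv_mem hxJ)
  set L := J ⊓ P with hL
  have hcL : c ∈ L := ⟨hcJ, hcP⟩
  have hLp : IsPGroup p L := hP.to_le inf_le_right
  have hLU : ⁅L, M⁆ ≤ U := (commutator_mono inf_le_left le_rfl).trans hJU
  obtain ⟨hi, h57⟩ := relIndex_cases hM h2 h3 hLp hU hLU h16 hcL hc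
  have hxL : zpowers x ≤ 𝒩 L :=
    CfsgH2.le_normalizer_inf ((zpowers_le.2 hxJ).trans le_normalizer) (zpowers_le.2 hxP)
  have hLc := le_sup_of_prime hi hcL hc
  -- `c` does not commute with `x` modulo `C`
  have hnc : ⁅x, c⁆ ∉ 𝒞 M := by
    intro h
    let π := QuotientGroup.mk' (𝒞 M)
    have e1 : Commute (π x) (π c) := by
      rw [← commutatorElement_eq_one_iff_commute, ← map_commutatorElement]
      exact (QuotientGroup.eq_one_iff _).2 h
    have e2 : π y = π c * π x := by rw [← map_mul, hcdef]; simp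
    have e3 : π y ^ 3 = 1 := by rw [← map_pow]; exact (QuotientGroup.eq_one_iff _).2 hy3
    have e4 : π x ^ 3 = 1 := by rw [← map_pow]; exact (QuotientGroup.eq_one_iff _).2 hx3
    rw [e2, e1.symm.mul_pow, e4, mul_one, ← map_pow] at e3
    apply hc
    refine CfsgH1.mem_of_pow_mem_of_coprime ?_ ((QuotientGroup.eq_one_iff _).1 e3)
    obtain ⟨n, hn⟩ := IsPGroup.iff_orderOf.1 hP ⟨c, hcP⟩
    rw [← orderOf_coe] at hn
    rw [hn]
    exact Nat.Coprime.pow_left _ ((Nat.coprime_primes hp.out Nat.prime_three).2 h3)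
  have h7 : p = 7 := by
    let π := QuotientGroup.mk' (𝒞 M)
    have h1 : #(L.map π) = p := by rw [← relIndex_ker, QuotientGroup.ker_mk', hi]
    have hx1 : π x ≠ 1 := fun h => hnc (by
      have := (QuotientGroup.eq_one_iff _).1 h
      rw [commutatorElement_def, mul_assoc, mul_assoc, ← mul_assoc c]
      exact mul_mem this (Normal.conj_mem inferInstance _ (inv_mem this) _))
    have e4 : π x ^ 3 = 1 := by rw [← map_pow]; exact (QuotientGroup.eq_one_iff _).2 hx3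
    haveI : Fact (Nat.Prime 3) := ⟨Nat.prime_three⟩
    have h5 : #(zpowers (π x)) = 3 := by rw [Nat.card_zpowers]; exact orderOf_eq_prime e4 hx1
    have h6 : SemiReg (L.map π) (zpowers (π x)) := by
      refine semiReg_of_prime_card (h5 ▸ Nat.prime_three) ?_
      refine (le_or_inf_eq_bot_of_prime (h1 ▸ hp.out) _).resolve_left fun h => hnc ?_
      have := h (mem_map_of_mem π hcL) (π x) (mem_zpowers _)
      rw [← QuotientGroup.eq_one_iff, ← QuotientGroup.mk'_apply, map_commutatorElement,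
        commutatorElement_eq_one_iff_mul_comm]
      exact this
    have h8 := h6.card_dvd_pred (by
      rw [← MonoidHom.map_zpowers]; exact (map_mono hxL).trans (le_normalizer_map _))
    rw [h5, h1] at h8
    rcases h57 with rfl | rfl
    · norm_num at h8
    · rfl
  subst h7
  set W := ⁅zpowers c, M⁆ with hW
  have hWM : W ≤ M := commutator_le_right _ _
  have hLW : ⁅L, M⁆ = W := le_antisymm ((commutator_mono hLc le_rfl).trans
    (comm_sup_le hWM (comm_cent_le _) le_rfl)) (commutator_mono (zpowers_le.2 hcL) le_rfl)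
  have hco := odd_zpowers hH (hPH hcP)
  constructor
  · have hWU : W ≤ U := hLW ▸ hLU
    have e1 := CfsgH1.card_modEq_card_inf_centralizer (hP.to_le (zpowers_le.2 hcP))
      (le_norm hU hWU)
    have e2 := CfsgH2.commutator_inf_centralizer_eq_bot (A := zpowers c) (H := M)
      le_normalizer_of_normal (cop hM hco le_rfl) hM.1
    have e3 := card_sup_le hM hWM ((inf_le_left : U ⊓ 𝒞 (zpowers c) ≤ U).trans hU)
    have e4 : W ⊓ (U ⊓ 𝒞 (zpowers c)) = ⊥ := by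
      rw [eq_bot_iff, ← e2, commutator_comm]
      exact inf_le_inf_left _ inf_le_right
    rw [e4, card_bot, mul_one] at e3
    have e5 := card_le_of_le (sup_le hWU inf_le_left : W ⊔ (U ⊓ 𝒞 (zpowers c)) ≤ U)
    have e6 : 0 < #(U ⊓ 𝒞 (zpowers c)) := Nat.card_pos
    obtain ⟨n, hn⟩ := exists_EA_of_isElementaryAbelian (isElementaryAbelian_mono hM hU)
    have e7 : #U ≤ 8 ∨ #U = 16 := by
      rw [hn.2] at h16 ⊢
      have : n ≤ 4 :=
        (Nat.pow_le_pow_iff_right (by norm_num)).1 (h16.trans (by norm_num : 16 ≤ 2 ^ 4))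
      interval_cases n <;> simp
    rcases e7 with e7 | e7
    · exact (card_le_of_le hWU).trans e7
    · rw [e7] at e1 e5
      have : 2 ≤ #(U ⊓ 𝒞 (zpowers c)) := by
        by_contra! h
        have : #(U ⊓ 𝒞 (zpowers c)) = 1 := by omega
        rw [this] at e1
        norm_num [Nat.ModEq] at e1
      nlinarith
  · have hxW : zpowers x ≤ 𝒩 W :=
      hLW ▸ CfsgH2.le_normalizer_commutator hxL le_normalizer_of_normal
    rcases irred hM (odd_zpowers hH hx) h4 (inf_le_right : W ⊓ _ ≤ _)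
      (CfsgH2.le_normalizer_inf hxW (normalizer_commutator_ge_left _ _)) with h | h
    · exfalso
      have e1 : x ∈ 𝒞 W := by
        rw [← zpowers_le, ← commutator_eq_bot_iff_le_centralizer, eq_bot_iff, ← h]
        exact le_inf (le_normalizer_iff_commutator_le_right.1 hxW) (commutator_mono le_rfl hWM)
      apply hnc
      refine faithful hM (J := L) (hH.of_dvd_nat (card_dvd_of_le (inf_le_right.trans hPH))) hWM
        hLW.le ⟨?_, ?_⟩
      · rw [commutatorElement_def]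
        exact L.mul_mem (CfsgH2.conj_mem_of_le_normalizer hxL (mem_zpowers x) hcL) (L.inv_mem hcL)
      · rw [commutatorElement_def, mul_assoc, mul_assoc, ← mul_assoc c]
        exact mul_mem e1 (CfsgH2.conj_mem_of_le_normalizer (CfsgH2.le_normalizer_centralizer
          (normalizer_commutator_ge_left _ _)) (mem_zpowers c) (inv_mem e1))
    · exact inf_eq_right.1 h

theorem case2 (hM : IsElementaryAbelian 2 M) {p : ℕ} [hp : Fact p.Prime] (h2 : p ≠ 2) (h3 : p ≠ 3)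
    {H P : Subgroup G} (hH : Odd #H) (hP : IsPGroup p P) (hPH : P ≤ H) {x : G} (hx : x ∈ H)
    (hxP : x ∈ 𝒩 P) (hx3 : x ^ 3 ∈ 𝒞 M) (h4 : #⁅zpowers x, M⁆ = 4) :
    ∃ U ≤ M, ⁅zpowers x, M⁆ ≤ U ∧ P ≤ 𝒩 U ∧ #U ≤ 8 := by
  have hcP : ∀ k ∈ P, k * x * k⁻¹ * x⁻¹ ∈ P := fun k hk => by
    rw [mul_assoc, mul_assoc, ← mul_assoc x]
    exact mul_mem hk (CfsgH2.conj_mem_of_le_normalizer (zpowers_le.2 hxP) (mem_zpowers x)
      (inv_mem hk))
  set V := ⁅zpowers x, M⁆ with hV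
  have hVM : V ≤ M := commutator_le_right _ _
  suffices h : ∃ W ≤ M, V ≤ W ∧ #W ≤ 8 ∧ ∀ k ∈ P, ⁅zpowers (k * x * k⁻¹ * x⁻¹), M⁆ ≤ W by
    obtain ⟨W, hWM, hVW, h8, hW⟩ := h
    have hcj : ∀ k ∈ P, cj k V ≤ W := fun k hk => by
      rw [hV, ← comm_cj]
      refine (commutator_mono (?_ : _ ≤ zpowers (k * x * k⁻¹ * x⁻¹) ⊔ zpowers x) le_rfl).trans
        (comm_sup_le hWM (hW k hk) hVW)
      rw [zpowers_le]
      simpa using mul_mem_sup (mem_zpowers (k * x * k⁻¹ * x⁻¹)) (mem_zpowers x)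
    have hle : ⁅P, V⁆ ⊔ V ≤ W := sup_le (commutator_le.2 fun k hk v hv => by
      rw [commutatorElement_def]
      exact W.mul_mem (hcj k hk (conj_mem_cj k hv)) (W.inv_mem (hVW hv))) hVW
    refine ⟨⁅P, V⁆ ⊔ V, hle.trans hWM, le_sup_right, fun k hk => mem_normalizer_of_cj_le ?_,
      (card_le_of_le hle).trans h8⟩
    rw [cj_sup, cj_eq_of_mem_normalizer (normalizer_commutator_ge_left _ _ hk)]
    refine sup_le le_sup_left (cj_le_iff.2 fun v hv => ?_)
    rw [show k * v * k⁻¹ = ⁅k, v⁆ * v by simp [commutatorElement_def]]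
    exact mul_mem_sup (commutator_mem_commutator hk hv) hv
  by_cases h0 : ∀ k ∈ P, k * x * k⁻¹ * x⁻¹ ∈ 𝒞 M
  · exact ⟨V, hVM, le_rfl, by omega, fun k hk =>
      (commutator_mono (zpowers_le.2 (h0 k hk)) le_rfl).trans (comm_cent_le _)⟩
  push Not at h0
  obtain ⟨k₀, hk₀, hc₀⟩ := h0
  obtain ⟨a1, a2⟩ := pair hM h2 h3 hH hP hPH hx hxP hk₀ hx3 h4 hc₀
  set c₀ := k₀ * x * k₀⁻¹ * x⁻¹
  have hWM : ⁅zpowers c₀, M⁆ ≤ M := commutator_le_right _ _
  refine ⟨_, hWM, a2, a1, fun k hk => ?_⟩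
  by_cases hc : k * x * k⁻¹ * x⁻¹ ∈ 𝒞 M
  · exact (commutator_mono (zpowers_le.2 hc) le_rfl).trans (comm_cent_le _)
  obtain ⟨b1, b2⟩ := pair hM h2 h3 hH hP hPH hx hxP hk hx3 h4 hc
  set c := k * x * k⁻¹ * x⁻¹
  have hU : ⁅zpowers c₀, M⁆ ⊔ ⁅zpowers c, M⁆ ≤ M := sup_le hWM (commutator_le_right _ _)
  have h16 : #(⁅zpowers c₀, M⁆ ⊔ ⁅zpowers c, M⁆) ≤ 16 := by
    have e1 := card_sup_le hM hWM (commutator_le_right (zpowers c) M)
    have e2 := card_le_of_le (le_inf a2 b2)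
    rw [h4] at e2
    nlinarith [Nat.mul_le_mul a1 b1]
  obtain ⟨hi, -⟩ := relIndex_cases hM h2 h3
    (hP.to_le (sup_le (zpowers_le.2 (hcP _ hk₀)) (zpowers_le.2 (hcP _ hk)))) hU
    (comm_sup_le hU le_sup_left le_sup_right) h16 (mem_sup_left (mem_zpowers c₀)) hc₀
  have := le_sup_of_prime hi (mem_sup_left (mem_zpowers c₀)) hc₀
  exact (commutator_mono (le_sup_right.trans this) le_rfl).trans
    (comm_sup_le hWM (comm_cent_le _) le_rfl)

theorem main [hS : Group.IsSolvable G] (hM : IsElementaryAbelian 2 M) {p : ℕ} (hp : p.Prime)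
    (h2 : p ≠ 2) {E : Subgroup G} (hE : EA p 3 E) {x : G} (hQ : IsPGroup 3 (zpowers x))
    (hx3 : x ^ 3 ∈ 𝒞 M) (h4 : #⁅zpowers x, M⁆ = 4) :
    ∃ (r : ℕ) (F : Subgroup G), r.Prime ∧ r ≠ 2 ∧ EA r 3 F ∧
      ¬ IsCyclic (F ⊓ 𝒞 ⁅zpowers x, M⁆ : Subgroup G) := by
  haveI : Fact (Nat.Prime 3) := ⟨Nat.prime_three⟩
  haveI : Fact p.Prime := ⟨hp⟩
  have hpi : ∀ {q : ℕ} [Fact q.Prime] {K : Subgroup G}, q ≠ 2 → IsPGroup q K →
      CfsgL0.IsPi ({2}ᶜ : Set ℕ) #K := by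
    intro q hq K hq2 hK r hr hrK
    obtain ⟨n, hn⟩ := IsPGroup.iff_card.1 hK
    rw [hn] at hrK
    rw [(Nat.prime_dvd_prime_iff_eq hr hq.out).1 (hr.dvd_of_dvd_pow hrK)]
    exact hq2
  have hT : Group.IsSolvable (⊤ : Subgroup G) := inferInstance
  obtain ⟨H, hH, hQH⟩ := CfsgH2.exists_isHallOf_ge hT le_top (hpi (by decide) hQ)
  have hHo : Odd #H := by
    rw [← Nat.not_even_iff_odd, even_iff_two_dvd]
    exact fun h => (hH.2.1 2 Nat.prime_two h : (2:ℕ) ∉ ({2} : Set ℕ)) rfl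
  have hxH : x ∈ H := zpowers_le.1 hQH
  have hVM : ⁅zpowers x, M⁆ ≤ M := commutator_le_right _ _
  by_cases h3 : 2 < prk 3 H
  · obtain ⟨F0, hF0, hF⟩ := le_prk_iff.1 h3
    obtain ⟨P, hP, hQP⟩ := CfsgH2.exists_isSylowOf_ge hQ hQH
    obtain ⟨g, -, hg⟩ := hP.exists_cj_le (isPGroup_of_isElementaryAbelian hF.1) hF0
    obtain ⟨F, hFP, hF', hn⟩ := exists_normal_EA_three (by decide) hP.2.1
      (le_prk_iff.2 ⟨_, hg, hF.cj g⟩)
    refine ⟨3, F, Nat.prime_three, by decide, hF', final hM (by decide) hF' hVM le_rfl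
      (fun f hf => case1 hM hP.2.1 (zpowers_le.1 hQP) (hFP hf) h4 ?_) (by omega)⟩
    have : f * x * f⁻¹ * x⁻¹ ∈ F := by
      rw [mul_assoc, mul_assoc, ← mul_assoc x]
      exact mul_mem hf (CfsgH2.conj_mem_of_le_normalizer (hQP.trans hn) (mem_zpowers x)
        (inv_mem hf))
    rw [isMulCommutative_iff_le.1 hF'.1.1 this f hf]
    simp
  · push Not at h3
    have hN := (bg4_18 (inferInstance : Group.IsSolvable H) hHo h3).2.1 (Or.inl rfl)
    obtain ⟨g, -, hg⟩ := hH.exists_cj_le hT le_top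
      (hpi h2 (isPGroup_of_isElementaryAbelian hE.1))
    have hE' := hE.cj g
    have hp3 : p ≠ 3 := by
      rintro rfl
      have := le_prk_iff.2 ⟨_, hg, hE'⟩
      omega
    have hEK : CfsgH2.cj g E ≤ CfsgH1.resIn 3 H := fun y hy => by
      refine CfsgH1.mem_resIn (hg hy) ?_
      obtain ⟨n, hn⟩ := IsPGroup.iff_orderOf.1 (isPGroup_of_isElementaryAbelian hE'.1) ⟨y, hy⟩
      rw [← orderOf_coe] at hn
      rw [hn]
      exact Nat.Coprime.pow_left _ ((Nat.coprime_primes hp Nat.prime_three).2 hp3)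
    obtain ⟨P, hP, hn⟩ := CfsgH2.exists_invariant_sylow p
      (hQH.trans (CfsgH1.le_normalizer_resIn (p := 3) H)) (by
        obtain ⟨n, hn⟩ := IsPGroup.iff_card.1 hQ
        rw [hn]
        exact Nat.Coprime.pow_left _ ((Nat.Prime.coprime_iff_not_dvd Nat.prime_three).2 hN))
      (Or.inl inferInstance)
    obtain ⟨k, -, hk⟩ := hP.exists_cj_le (isPGroup_of_isElementaryAbelian hE'.1) hEK
    obtain ⟨U, hU, hVU, hPU, h8⟩ := case2 hM h2 hp3 hHo hP.2.1
      (hP.1.trans (CfsgH1.resIn_le H)) hxH (zpowers_le.1 hn) hx3 h4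
    exact ⟨p, _, hp, h2, hE'.cj k, final hM h2 (hE'.cj k) hU hVU (hk.trans hPU) h8⟩

end CfsgH2F.Four3
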