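import Cfsg.Agent.H2.Jor3
import Cfsg.Agent.H2.Extraspecial

set_option autoImplicit false

namespace CfsgH2J
open Subgroup Cfsg CfsgL0 CfsgFT
open scoped commutatorElement

variable {G : Type*} [Group G] [Finite G] {M R : Subgroup G} [hMn : M.Normal] {b : G}

instance : Fact (Nat.Prime 2) := ⟨Nat.prime_two⟩

theorem comm_conj_of_fpf {K : Subgroup G} {c : G} (hn : c ∈ 𝒩 K) (h0 : K ⊓ 𝒞₁ c = ⊥)
    (h3 : c ^ 3 = 1) {x : G} (hx : x ∈ K) :
    x * (c * x * c⁻¹) * (c * (c * x * c⁻¹) * c⁻¹) = 1 ∧ Commute x (c * x * c⁻¹) := by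
  have key : ∀ y ∈ K, y * (c * y * c⁻¹) * (c * (c * y * c⁻¹) * c⁻¹) = 1 := fun y hy => by
    obtain ⟨k, -, rfl⟩ := exists_comm_eq hn h0 hy
    calc _ = k * c ^ 3 * k⁻¹ * (c ^ 3)⁻¹ := by simp only [pow_succ, pow_zero, one_mul]; group
      _ = 1 := by rw [h3]; simp
  refine ⟨key x hx, ?_⟩
  have h1 := key x hx
  have h2 := congrArg (·⁻¹) (key x⁻¹ (inv_mem hx))
  have e1 : x * (c * x * c⁻¹) = (c * (c * x * c⁻¹) * c⁻¹)⁻¹ := eq_inv_of_mul_eq_one_left h1
  have e2 : (c * x * c⁻¹) * x = (c * (c * x * c⁻¹) * c⁻¹)⁻¹ := eq_inv_of_mul_eq_one_right (by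
    rw [← inv_one, ← h2]; simp [mul_assoc])
  exact e1.trans e2.symm

theorem norm_of_comm {Z : Subgroup G} {x c : G} (hx : x ∈ 𝒩 Z) (h : ⁅x, c⁆ ∈ Z) :
    x ∈ 𝒩 (Z ⊔ zpowers c) := by
  apply mem_normalizer_of_cj_le
  rw [cj_sup, cj_eq_of_mem_normalizer hx, cj, MonoidHom.map_zpowers]
  refine sup_le le_sup_left (zpowers_le.2 ?_)
  simpa [commutatorElement_def] using mul_mem_sup h (mem_zpowers c)

namespace Ctx
variable (h : Ctx M R b)
include h

theorem gens {A : Subgroup G} (hA : Four R b A) {t : G} (ht : t ∈ A) (h1 : t ≠ 1) :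
    zpowers t ⊔ zpowers (b * t * b⁻¹) = A := by
  have ht' : b * t * b⁻¹ ∈ A := CfsgH2.conj_mem_of_le_normalizer hA.n (mem_zpowers b) ht
  have h2 : b * t * b⁻¹ ≠ 1 := fun e => h1 (by simpa using e)
  have c1 := CfsgH2.card_zpowers_of_pow_eq_one h1 (hA.ea.1.2 t ht)
  refine (hA.ea.dp_of_ne (zpowers_le.2 ht) (zpowers_le.2 ht') c1
    (CfsgH2.card_zpowers_of_pow_eq_one h2 (hA.ea.1.2 _ ht')) fun e => ?_).sup_eq
  rcases h.irr hA (zpowers_le.2 ht) (zpowers_le.2 (mem_normalizer_of_cj_le (by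
    rw [cj, MonoidHom.map_zpowers]; exact e.ge))) with e1 | e1
  · exact h1 (zpowers_eq_bot.1 e1)
  · have := hA.ea.2
    rw [← e1, c1] at this
    norm_num at this

theorem cent_four {A D : Subgroup G} (hA : Four R b A) (hD : D ≤ R) (hDA : D ≤ 𝒞 A)
    (hAD : A ≤ D) (hn : zpowers b ≤ 𝒩 D) : ⁅D, zpowers b⁆ = A := by
  classical
  have a1 := h.freeA hA
  have hUM : ⁅M, A⁆ ≤ M := commutator_le_left _ _
  have hED : ⁅D, zpowers b⁆ ≤ D := le_normalizer_iff_commutator_le_left.1 hn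
  have hAE : A ≤ ⁅D, zpowers b⁆ := (h.AB hA).ge.trans (commutator_mono hAD le_rfl)
  have hDn : D ≤ 𝒩 A := hDA.trans (centralizer_le_normalizer _)
  have b1 : ⁅D, zpowers b⁆ ≤ 𝒞 (M ⊓ 𝒞 A : Subgroup G) :=
    (commutator_mono le_rfl (le_centralizer_iff.1 (h.cent_le hA))).trans
      (le_normalizer_iff_commutator_le_right.1 (CfsgH2.le_normalizer_centralizer
        (CfsgH2.le_normalizer_inf le_normalizer_of_normal (CfsgH2.le_normalizer_centralizer hDn))))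
  set E := ⁅D, zpowers b⁆ with hE
  have b2 : ∀ t ∈ A, t ≠ 1 → (𝒞 (⁅M, A⁆ ⊓ 𝒞₁ t : Subgroup G)).relIndex E ≤ 2 := by
    intro t ht h1
    obtain ⟨n, hn'⟩ := exists_EA_of_isElementaryAbelian (isElementaryAbelian_mono h.ea
      ((inf_le_left : ⁅M, A⁆ ⊓ 𝒞₁ t ≤ _).trans hUM))
    have c1 := CfsgH2.relIndex_centralizer_dvd_glCard (A := E) (hED.trans
      (CfsgH2.le_normalizer_inf (CfsgH2.le_normalizer_commutator le_normalizer_of_normal hDn) (by
        rw [← CfsgFT.centralizer_zpowers]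
        exact CfsgH2.le_normalizer_centralizer ((hDA.trans (centralizer_le (zpowers_le.2 ht))).trans
          (centralizer_le_normalizer _))))) hn'.1 hn'.2
    have c2 : cj b (⁅M, A⁆ ⊓ 𝒞₁ t) = ⁅M, A⁆ ⊓ 𝒞₁ (b * t * b⁻¹) := by
      rw [cj_inf, cj_centralizer_singleton, cj_eq_of_mem_normalizer (zpowers_le.1
        (CfsgH2.le_normalizer_commutator le_normalizer_of_normal hA.n))]
    have c3 := h.card_sup ((inf_le_left : ⁅M, A⁆ ⊓ 𝒞₁ t ≤ _).trans hUM)
      ((inf_le_left : ⁅M, A⁆ ⊓ 𝒞₁ (b * t * b⁻¹) ≤ _).trans hUM)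
    have c4 : ⁅M, A⁆ ⊓ 𝒞₁ t ⊓ (⁅M, A⁆ ⊓ 𝒞₁ (b * t * b⁻¹)) = ⊥ := by
      rw [eq_bot_iff, ← h.comm_inf hA.le le_rfl le_normalizer_of_normal]
      refine le_inf (inf_le_left.trans inf_le_left) ?_
      rw [le_centralizer_iff]
      conv_lhs => rw [← h.gens hA ht h1]
      refine sup_le ?_ ?_ <;> rw [le_centralizer_iff, CfsgFT.centralizer_zpowers]
      · exact inf_le_left.trans inf_le_right
      · exact inf_le_right.trans inf_le_right
    have c5 := card_le_of_le (sup_le inf_le_left inf_le_left :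
      (⁅M, A⁆ ⊓ 𝒞₁ t) ⊔ (⁅M, A⁆ ⊓ 𝒞₁ (b * t * b⁻¹)) ≤ ⁅M, A⁆)
    rw [c4, card_bot, mul_one, ← c2, card_cj, hn'.2] at c3
    rw [← c2, c3, a1.1] at c5
    have c6 : n ≤ 1 := by
      by_contra! hh
      have : 3 ^ 2 ≤ 3 ^ n := Nat.pow_le_pow_right (by norm_num) hh
      nlinarith
    refine Nat.le_of_dvd (by norm_num) (c1.trans ?_)
    interval_cases n <;> decide
  have b3 : #E ≤ 8 := by
    haveI := Fintype.ofFinite {t : A // t ≠ 1}
    have c1 := relIndex_iInf_le (L := E)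
      fun t : {t : A // t ≠ 1} => 𝒞 (⁅M, A⁆ ⊓ 𝒞₁ (t.1 : G) : Subgroup G)
    have c2 := Finset.prod_le_pow_card Finset.univ (fun t : {t : A // t ≠ 1} =>
      (𝒞 (⁅M, A⁆ ⊓ 𝒞₁ (t.1 : G) : Subgroup G)).relIndex E) 2
      fun t _ => b2 _ t.1.2 fun e => t.2 (Subtype.ext e)
    have c3 : Fintype.card {t : A // t ≠ 1} = 3 := by
      haveI := Fintype.ofFinite A
      have := hA.ea.2
      rw [Nat.card_eq_fintype_card] at this
      convert Fintype.card_subtype_compl (fun t : A => t = 1)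
      simp [this]
    rw [Finset.card_univ, c3] at c2
    rw [← inf_relIndex_left] at c1
    have c4 : E ⊓ ⨅ t : {t : A // t ≠ 1}, 𝒞 (⁅M, A⁆ ⊓ 𝒞₁ (t.1 : G) : Subgroup G) = ⊥ := by
      rw [eq_bot_iff, ← h.faith]
      refine le_inf (inf_le_left.trans (hED.trans hD)) (le_centralizer_iff.1 ?_)
      conv_lhs => rw [← CfsgH2.commutator_sup_centralizer (A := A) (H := M) le_normalizer_of_normal
        (h.copM hA.le le_rfl) (Or.inr (h.solvM le_rfl))]
      refine sup_le (CfsgH2.le_of_noncyclic hA.ea.comm (hA.ea.not_isCyclic le_rfl)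
        (normalizer_commutator_ge_right _ _) (h.copM hA.le hUM) fun t ht h1 => ?_)
        (le_centralizer_iff.1 (inf_le_left.trans b1))
      exact le_centralizer_iff.1 (inf_le_right.trans
        (iInf_le _ (⟨⟨t, ht⟩, fun e => h1 (congrArg Subtype.val e)⟩ : {t : A // t ≠ 1})))
    rw [c4, relIndex_bot_left] at c1
    exact c1.trans c2
  by_contra hne
  have c1 := CfsgH2.card_mul_relIndex hAE
  have c2 : A.relIndex E ≠ 1 := fun e => hne (le_antisymm (relIndex_eq_one.1 e) hAE)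
  have c3 : A.relIndex E ≠ 0 := index_ne_zero_of_finite
  rw [hA.ea.2] at c1
  have c4 := CfsgH2.commutator_le_of_relIndex_two (by omega : A.relIndex E = 2)
    (normalizer_commutator_ge_right _ _) hA.n
  rw [hE, CfsgH2.commutator_commutator_eq hn (h.copB hD) (Or.inl h.solvB)] at c4
  exact hne (le_antisymm c4 hAE)

theorem exists_four (h2 : IsPGroup 2 R) {A : Subgroup G} (hA : A ≤ R) (hc : IsMulCommutative A)
    (hn : zpowers b ≤ 𝒩 A) (hnc : ¬ A ≤ 𝒞 (zpowers b)) : ∃ A' ≤ A, Four R b A' := by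
  have hle : ⁅A, zpowers b⁆ ≤ A := le_normalizer_iff_commutator_le_left.1 hn
  have h0 := CfsgH2.commutator_inf_centralizer_eq_bot hn (h.copB hA) hc
  have hn' := zpowers_le.1 (normalizer_commutator_ge_right A (zpowers b))
  obtain ⟨t, ht, h1, ht2, -⟩ := CfsgH2.exists_mem_centralizer_of_ne_bot (h2.to_le (hle.trans hA))
    le_rfl le_normalizer fun e => hnc (commutator_eq_bot_iff_le_centralizer.1 e)
  have ht' := (mem_normalizer_iff.1 hn' t).1 ht
  have h3 := comm_conj_of_fpf hn' (by rwa [← CfsgFT.centralizer_zpowers]) h.b3 ht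
  have h4 : ¬ zpowers b ≤ 𝒞₁ t := fun e => h1 (mem_bot.1 (h0 ▸ ⟨ht, le_centralizer_iff.1
    (CfsgFT.centralizer_zpowers t ▸ e) (mem_zpowers t)⟩))
  have c1 := CfsgH2.card_zpowers_of_pow_eq_one h1 ht2
  have c2 := CfsgH2.card_zpowers_of_pow_eq_one (z := b * t * b⁻¹) (p := 2)
    (fun e => h1 (by simpa using e)) (by rw [conj_pow, ht2]; simp)
  refine ⟨zpowers t ⊔ zpowers (b * t * b⁻¹), sup_le (zpowers_le.2 (hle ht)) (zpowers_le.2 (hle ht')),
    sup_le (zpowers_le.2 (hA (hle ht))) (zpowers_le.2 (hA (hle ht'))),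
    (EA_one_iff.2 c1).sup (EA_one_iff.2 c2) ?_ ?_, zpowers_le.2 (mem_normalizer_of_cj_le ?_),
    fun e => h4 (e.trans ?_)⟩
  · rw [CfsgFT.centralizer_zpowers, zpowers_le, mem_centralizer_singleton_iff]
    exact h3.2.symm
  · refine (le_or_inf_eq_bot_of_prime (c1 ▸ Nat.prime_two) _).resolve_left fun e => h4 ?_
    have e1 := eq_of_le_of_card_ge e (by rw [c1, c2])
    rcases CfsgH2.eq_or_eq_of_mem_zpowers_two ht2 (e1 ▸ mem_zpowers (b * t * b⁻¹)) with e2 | e2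
    · exact absurd (by simpa using e2) h1
    · rw [zpowers_le, mem_centralizer_singleton_iff]
      exact mul_inv_eq_iff_eq_mul.1 e2
  · rw [cj_sup, cj, cj, MonoidHom.map_zpowers, MonoidHom.map_zpowers]
    refine sup_le le_sup_right (zpowers_le.2 ?_)
    have := inv_mem (mul_mem_sup (mem_zpowers t) (mem_zpowers (b * t * b⁻¹)))
    rwa [← eq_inv_of_mul_eq_one_right h3.1] at this
  · rw [← CfsgFT.centralizer_zpowers]
    exact centralizer_le (SetLike.coe_subset_coe.2 le_sup_left)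

theorem card_ctr {A : Subgroup G} (hA : Four R b A) (hZ : ctr R ≤ 𝒞 (zpowers b)) :
    #(ctr R) = 2 := by
  have a1 := h.freeA hA
  have h1 : SemiReg (⁅M, A⁆ ⊓ 𝒞 (zpowers b)) (ctr R) := fun z hz h1 => by
    have key : ∀ {X : Subgroup G}, z ∈ 𝒞 X → X ≤ 𝒩 (M ⊓ 𝒞₁ z) := fun hX =>
      CfsgH2.le_normalizer_inf le_normalizer_of_normal (by
        rw [← CfsgFT.centralizer_zpowers]
        exact CfsgH2.le_normalizer_centralizer ((le_centralizer_iff.1 (zpowers_le.2 hX)).trans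
          (centralizer_le_normalizer _)))
    rcases h.dich hA inf_le_left (key hz.2) (key (hZ hz)) with e | e
    · rw [eq_bot_iff, ← h.comm_inf hA.le le_rfl le_normalizer_of_normal]
      exact le_inf (inf_le_left.trans inf_le_left) ((inf_le_inf_right _ (inf_le_left.trans
        (commutator_le_left _ _))).trans (e.trans (centralizer_le hA.le)))
    · refine absurd (mem_bot.1 ?_) h1
      rw [← h.faithful (J := zpowers z) (zpowers_le.2 hz.1) (commutator_le_left M R)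
        (commutator_mono le_rfl (zpowers_le.2 hz.1))]
      exact ⟨mem_zpowers z, fun y hy => mem_centralizer_singleton_iff.1 (e hy).2⟩
  have h2 := h1.card_dvd_pred (CfsgH2.le_normalizer_inf (CfsgH2.le_normalizer_commutator
    le_normalizer_of_normal ((inf_le_right.trans (centralizer_le hA.le)).trans
      (centralizer_le_normalizer _))) (CfsgH2.le_normalizer_centralizer
        (hZ.trans (centralizer_le_normalizer _))))
  rw [a1.2.2.1] at h2
  refine ((Nat.dvd_prime Nat.prime_two).1 h2).resolve_left fun e => ?_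
  exact ctr_ne_bot (h.two hA).isNilpotent (fun e => hA.ea.ne_bot (by norm_num)
    (eq_bot_iff.2 (e ▸ hA.le))) (card_eq_one.1 e)

theorem exists_four' {A : Subgroup G} (hA : Four R b A) :
    ∃ A', Four R b A' ∧ ⁅R, A'⁆ ≤ ctr R := by
  have h2 := h.two hA
  have hZn : 𝒩 R ≤ 𝒩 (ctr R) := normalizer_le_normalizer_ctr R
  have hRR : ⁅R, R⁆ ≤ R := le_normalizer_iff_commutator_le_left.1 le_normalizer
  have key : ∀ {X : Subgroup G}, X ≤ 𝒩 R → X ≤ 𝒩 (⁅R, R⁆ ⊓ cMod R (ctr R)) := fun hX =>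
    CfsgH2.le_normalizer_inf (CfsgH2.le_normalizer_commutator hX hX)
      (le_normalizer_cMod hX (hX.trans hZn))
  by_cases h0 : ⁅R, R⁆ ⊓ cMod R (ctr R) ≤ ctr R
  · refine ⟨A, hA, (commutator_mono le_rfl hA.le).trans ?_⟩
    by_contra h1
    obtain ⟨x, hx, hx1, -, hx2⟩ := CfsgH2.exists_central_mod h2 hRR
      (normalizer_commutator_ge_left _ _) h1
    exact hx1 (h0 ⟨hx, hZn (le_normalizer (hRR hx)), hx2⟩)
  · have e1 : ⁅⁅R, cMod R (ctr R)⁆, R⁆ = ⊥ := commutator_eq_bot_iff_le_centralizer.2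
      ((commutator_cMod_le' _ _).trans inf_le_right)
    have e2 : ⁅⁅R, R⁆, cMod R (ctr R)⁆ = ⊥ :=
      commutator_commutator_eq_bot_of_rotate e1 (by rwa [commutator_comm (cMod _ _)])
    obtain ⟨A', h1, h3⟩ := h.exists_four h2 (inf_le_left.trans hRR) (isMulCommutative_iff_le.2
      (inf_le_left.trans ((commutator_eq_bot_iff_le_centralizer.1 e2).trans
        (centralizer_le (SetLike.coe_subset_coe.2 inf_le_right))))) (key h.bR)
      fun e => h0 (le_inf (inf_le_left.trans hRR) (le_centralizer_iff.1 (h.le_of_mem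
        (zpowers_le.1 (le_centralizer_iff.1 e))
          (CfsgH2.le_normalizer_centralizer (key le_normalizer)))))
    exact ⟨A', h3, (commutator_mono le_rfl (h1.trans inf_le_right)).trans (commutator_cMod_le' _ _)⟩

theorem extra {A : Subgroup G} (hA : Four R b A) (hZ : ctr R ≤ 𝒞 (zpowers b))
    (hAZ : ⁅R, A⁆ ≤ ctr R) : IsExtraspecial 2 R ∧ #R = 32 ∧ ∃ E ≤ R, EA 2 3 E := by
  have h2 := h.two hA
  have hZ2 := h.card_ctr hA hZ
  set Z := ctr R with hZdef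
  have hZR : Z ≤ R := inf_le_left
  have hZC : Z ≤ 𝒞 R := inf_le_right
  have hZn : 𝒩 R ≤ 𝒩 Z := normalizer_le_normalizer_ctr R
  have hRZ : R ≤ 𝒩 Z := le_normalizer.trans hZn
  have hAZ0 : A ⊓ Z = ⊥ := eq_bot_iff.2 ((inf_le_inf_left _ hZ).trans (h.fpf hA).le)
  have hE : EA 2 3 (A ⊔ Z) := hA.ea.sup (EA_one_iff.2 hZ2) (hZC.trans (centralizer_le hA.le)) hAZ0
  set E := A ⊔ Z with hEdef
  have hER : E ≤ R := sup_le hA.le hZR
  have hRE' : ⁅E, R⁆ ≤ Z := (le_cMod_iff.1 (sup_le (le_cMod_iff.2 ⟨hA.le.trans hRZ,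
    commutator_comm R A ▸ hAZ⟩) (le_cMod_self hRZ))).2
  have hRE : R ≤ 𝒩 E := le_normalizer_iff_commutator_le_left.2 (hRE'.trans le_sup_right)
  have hBE : zpowers b ≤ 𝒩 E := CfsgH2.le_normalizer_sup hA.n (h.bR.trans hZn)
  have hEC : ∀ e ∈ E, e ∈ 𝒞 (zpowers b) → e ∈ Z := fun e he hc => by
    obtain ⟨a, ha, z, hz, rfl⟩ := (CfsgH2.mem_sup_of_le_normalizer' (hA.le.trans hRZ)).1 he
    rw [mem_bot.1 (h.fpf hA ▸ ⟨ha, (mul_mem_cancel_right (hZ hz)).1 hc⟩ : a ∈ ⊥), one_mul]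
    exact hz
  have hsq : ∀ x ∈ R, ∀ g ∈ R, ⁅x, g⁆ ∈ Z → ⁅x ^ 2, g⁆ = 1 := fun x hx g hg e => by
    rw [CfsgH2.comm_pow_left (hZC e x hx), ← hZ2]; exact pow_card_of_mem e
  set D := R ⊓ 𝒞 E with hDdef
  have hED : E ≤ D := le_inf hER hE.le_centralizer
  have hDA : D ≤ 𝒞 A := inf_le_right.trans (centralizer_le (SetLike.coe_subset_coe.2 le_sup_left))
  have hBD : zpowers b ≤ 𝒩 D :=
    CfsgH2.le_normalizer_inf h.bR (CfsgH2.le_normalizer_centralizer hBE)
  have hRD : R ≤ 𝒩 D := CfsgH2.le_normalizer_inf le_normalizer (CfsgH2.le_normalizer_centralizer hRE)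
  have hDB : ⁅D, zpowers b⁆ = A := h.cent_four hA inf_le_left hDA (le_sup_left.trans hED) hBD
  have hdec : ∀ d ∈ D, ∃ a ∈ A, ∃ c ∈ D ⊓ 𝒞 (zpowers b), d = a * c := fun d hd => by
    rw [← hDB]
    exact CfsgH2.exists_commutator_mul_centralizer hBD (h.copB inf_le_left) (Or.inl h.solvB) hd
  have i1 : D.relIndex R ≤ 4 := by
    obtain ⟨t, ht, h1⟩ := (A.bot_or_exists_ne_one).resolve_left (hA.ea.ne_bot (by norm_num))
    have ht' : b * t * b⁻¹ ∈ A := CfsgH2.conj_mem_of_le_normalizer hA.n (mem_zpowers b) ht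
    have c : ∀ s ∈ A, (𝒞₁ s).relIndex R ≤ 2 := fun s hs => hZ2 ▸
      CfsgH2.relIndex_centralizer_le fun c hc => hAZ (commutator_mem_commutator hc hs)
    refine le_trans ?_ (relIndex_inf_le.trans (Nat.mul_le_mul (c t ht) (c _ ht')))
    rw [← inf_relIndex_left R (𝒞₁ t ⊓ _)]
    refine relIndex_le_of_le_left (le_inf inf_le_left (le_centralizer_iff.1 (sup_le ?_
      (hZC.trans (centralizer_le (SetLike.coe_subset_coe.2 inf_le_left)))))) index_ne_zero_of_finite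
    conv_lhs => rw [← h.gens hA ht h1]
    refine sup_le ?_ ?_ <;> rw [le_centralizer_iff, CfsgFT.centralizer_zpowers]
    · exact inf_le_right.trans inf_le_left
    · exact inf_le_right.trans inf_le_right
  have i2 : ∀ K ≤ R, zpowers b ≤ 𝒩 K → K ≠ R → 4 ≤ K.relIndex R := fun K hK hn hne => by
    obtain ⟨n, hn'⟩ := IsPGroup.iff_card.1 h2
    obtain ⟨k, -, hk⟩ := (Nat.dvd_prime_pow Nat.prime_two).1 (hn' ▸ relIndex_dvd_card K R)
    have hne' : ¬ R ≤ K := fun e => hne (le_antisymm hK e)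
    rcases k with _ | _ | k
    · exact absurd (relIndex_eq_one.1 hk) hne'
    · exact absurd (h.RB ▸ CfsgH2.commutator_le_of_relIndex_two hk h.bR hn) hne'
    · rw [hk]; exact Nat.pow_le_pow_right (n := 2) (i := 2) (by norm_num) (by omega)
  have hDR : D ≠ R := fun e => hA.ea.ne_bot (by norm_num) (by
    rw [← hAZ0, eq_comm, inf_eq_left]
    exact le_inf hA.le (le_centralizer_iff.1 (e ▸ hDA)))
  have i3 : D.relIndex R = 4 := le_antisymm i1 (i2 D inf_le_left hBD hDR)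
  have irr : ∀ K ≤ R, D ≤ K → zpowers b ≤ 𝒩 K → K ≤ D ∨ K = R := fun K hK hDK hn => by
    by_contra! hh
    have c1 := i2 K hK hn hh.2
    have c2 := relIndex_mul_relIndex D K R hDK hK
    have c3 : D.relIndex K ≠ 0 := index_ne_zero_of_finite
    have c4 : D.relIndex K ≠ 1 := fun e => hh.1 (relIndex_eq_one.1 e)
    have c5 : 2 ≤ D.relIndex K := by omega
    nlinarith
  have hRDE : ∀ x ∈ R, ∀ d ∈ D, ⁅x, d⁆ ∈ E := fun x hx =>
    (h.le_of_mem (N := cMod D E) (zpowers_le.1 (le_cMod_iff.2 ⟨hBE, commutator_comm D _ ▸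
      hDB.le.trans le_sup_left⟩)) (le_normalizer_cMod hRD hRE) hx).2
  have cl1 : ∀ c ∈ D ⊓ 𝒞 (zpowers b), ∀ x ∈ R, x ∉ D → ⁅x, c⁆ ∈ Z → c ∈ Z := by
    intro c hc x hx hxD hcx
    have hF : Z ⊔ zpowers c ≤ 𝒞 (zpowers b) := sup_le hZ (zpowers_le.2 hc.2)
    have hBF : zpowers b ≤ 𝒩 (Z ⊔ zpowers c) :=
      (le_centralizer_iff.1 hF).trans (centralizer_le_normalizer _)
    have hDF : ∀ d ∈ D, ⁅d, c⁆ ∈ Z := fun d hd => by
      obtain ⟨a, ha, c', hc', rfl⟩ := hdec d hd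
      have : ⁅a * c', c⁆ = a * ⁅c', c⁆ * a⁻¹ := by
        have := hDA (inv_mem hc.1) a⁻¹ (inv_mem ha)
        simp only [commutatorElement_def, mul_inv_rev, mul_assoc, this]
      rw [this]
      refine CfsgH2.conj_mem_of_le_normalizer hRZ (hA.le ha) (hEC _ (hRDE c' hc'.1.1 c hc.1) ?_)
      exact mul_mem (mul_mem (mul_mem hc'.2 hc.2) (inv_mem hc'.2)) (inv_mem hc.2)
    rcases irr (R ⊓ 𝒩 (Z ⊔ zpowers c)) inf_le_left
      (fun d hd => ⟨hd.1, norm_of_comm (hRZ hd.1) (hDF d hd)⟩)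
      (CfsgH2.le_normalizer_inf h.bR (CfsgH2.le_normalizer_normalizer hBF)) with e | e
    · exact absurd (e ⟨hx, norm_of_comm (hRZ hx) hcx⟩) hxD
    · exact ⟨hc.1.1, le_centralizer_iff.1 (h.le_of_mem (zpowers_le.1 (le_centralizer_iff.1 hF))
        (CfsgH2.le_normalizer_centralizer (inf_eq_left.1 e))) (mem_sup_right (mem_zpowers c))⟩
  have cl2 : ∀ x ∈ R, x ∉ D → x ^ 2 ∈ E := fun x hx hxD => by
    have h1 : x ^ 2 ∈ D := ⟨pow_mem hx _, fun e he => (commutatorElement_eq_one_iff_mul_comm.1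
      (hsq x hx e (hER he) (commutator_comm E R ▸ hRE' <| commutator_mem_commutator hx he))).symm⟩
    obtain ⟨a, ha, c, hc, e⟩ := hdec _ h1
    rw [e]
    refine mul_mem_sup ha (cl1 c hc x hx hxD ?_)
    rw [show c = a⁻¹ * x ^ 2 by rw [e]; simp, show ⁅x, a⁻¹ * x ^ 2⁆ = ⁅x, a⁻¹⁆ by
      simp only [commutatorElement_def, sq]; group]
    exact hAZ (commutator_mem_commutator hx (inv_mem ha))
  have cl3 : ∀ x ∈ R, x ^ 2 ∈ E := fun d hdR => by
    by_cases hd : d ∈ D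
    swap
    · exact cl2 d hdR hd
    obtain ⟨y, hy, hyD⟩ := SetLike.exists_of_lt (lt_of_le_of_ne (inf_le_left : D ≤ R) hDR)
    have e1 := cl2 (y * d) (mul_mem hy hdR) fun e => hyD ((mul_mem_cancel_right hd).1 e)
    rw [show d ^ 2 = ⁅y⁻¹, d⁆⁻¹ * ((y ^ 2)⁻¹ * (y * d) ^ 2) by
      simp only [commutatorElement_def, sq]; group]
    exact mul_mem (inv_mem (hRDE _ (inv_mem hy) d hd)) (mul_mem (inv_mem (cl2 y hy hyD)) e1)
  have hRR : ⁅R, R⁆ ≤ E := commutator_le.2 fun x hx y hy => by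
    rw [show ⁅x, y⁆ = (x * y) ^ 2 * (y⁻¹ * (x ^ 2)⁻¹ * y) * (y ^ 2)⁻¹ by
      simp only [commutatorElement_def, sq]; group]
    exact mul_mem (mul_mem (cl3 _ (mul_mem hx hy)) (CfsgH2.conj_mem_of_le_normalizer' hRE hy
      (inv_mem (cl3 x hx)))) (inv_mem (cl3 y hy))
  have hCE : R ⊓ 𝒞 (zpowers b) ≤ E := by
    have := CfsgH2.commutator_inf_centralizer_eq_bot (A := qm E (zpowers b)) (H := qm E R)
      (qm_le_normalizer h.bR) (((h.copB le_rfl).coprime_dvd_left (card_qm_dvd _ _)).coprime_dvd_right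
        (card_qm_dvd _ _)) ((isMulCommutative_qm_iff hRE).2 hRR)
    rw [← qm_commutator hRE hBE, h.RB] at this
    rw [← qm_eq_bot_iff (inf_le_left.trans hRE), eq_bot_iff, ← this]
    exact qm_inf_centralizer_le
  have hDE : D = E := le_antisymm (fun d hd => by
    obtain ⟨a, ha, c, hc, rfl⟩ := hdec d hd
    exact mul_mem (mem_sup_left ha) (hCE ⟨hc.1.1, hc.2⟩)) hED
  have h32 : #R = 32 := by
    rw [← CfsgH2.card_mul_relIndex hER, hE.2, ← hDE, i3]; rfl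
  have hbZ : b ∈ 𝒩 Z := zpowers_le.1 (h.bR.trans hZn)
  have cl4 : ∀ x ∈ R, ⁅x, b * x * b⁻¹⁆ ∈ Z := fun x hx => by
    have e0 : qm Z R ⊓ 𝒞₁ (qp Z ⟨b, hbZ⟩) = ⊥ := by
      rw [← CfsgFT.centralizer_zpowers, ← qm_zpowers, ← qm_inf_centralizer (h.bR.trans hZn) hRZ hZR
        (h.copB hZR) (Or.inl h.solvB), qm_eq_bot_iff (inf_le_left.trans hRZ)]
      exact fun c hc => hEC c (hCE hc) hc.2
    have e1 := (comm_conj_of_fpf (x := qp Z ⟨x, hRZ hx⟩) (zpowers_le.1 (by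
      rw [← qm_zpowers]; exact qm_le_normalizer h.bR)) e0 (by
        rw [← map_pow, qp_eq_one_iff]; simp [h.b3]) (qp_mem_qm hx)).2
    rw [← commutatorElement_eq_one_iff_commute, ← map_inv, ← map_mul, ← map_mul,
      ← map_commutatorElement, qp_eq_one_iff] at e1
    exact e1
  have cl5 : ∀ x ∈ R, ∀ g ∈ R, ⁅g, x⁆ ∈ Z := fun x hx => by
    by_cases hxE : x ∈ E
    · exact fun g hg => commutator_comm E R ▸ hRE' <| commutator_mem_commutator hg hxE
    have c1 := CfsgH2.card_sup_zpowers (hRE hx) Nat.prime_two (cl3 x hx) hxE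
    have hKR : E ⊔ zpowers x ≤ R := sup_le hER (zpowers_le.2 hx)
    have hy : b * x * b⁻¹ ∈ R := CfsgH2.conj_mem_of_le_normalizer h.bR (mem_zpowers b) hx
    have c2 : b * x * b⁻¹ ∉ E ⊔ zpowers x := fun e => by
      rcases irr _ hKR (hDE ▸ le_sup_left) (zpowers_le.2 (mem_normalizer_of_cj_le (by
        rw [cj_sup, cj_eq_of_mem_normalizer (zpowers_le.1 hBE), cj, MonoidHom.map_zpowers]
        exact sup_le le_sup_left (zpowers_le.2 e)))) with e | e
      · exact hxE (hDE ▸ e (mem_sup_right (mem_zpowers x)))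
      · rw [e, h32, hE.2] at c1; norm_num at c1
    have c3 := CfsgH2.eq_of_lt_of_card_eq_mul h2 (lt_of_le_of_ne (le_sup_left : E ⊔ zpowers x ≤
      E ⊔ zpowers x ⊔ zpowers (b * x * b⁻¹)) fun e => c2 (e ▸ mem_sup_right (mem_zpowers _)))
      (sup_le hKR (zpowers_le.2 hy)) (by rw [c1, h32, hE.2]; norm_num)
    let K : Subgroup G :=
      { carrier := {g | g ∈ R ∧ ⁅g, x⁆ ∈ Z}
        mul_mem' := fun {g g'} hg hg' => ⟨mul_mem hg.1 hg'.1, by
          rw [show ⁅g * g', x⁆ = g * ⁅g', x⁆ * g⁻¹ * ⁅g, x⁆ by simp [commutatorElement_def, mul_assoc]]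
          exact mul_mem (CfsgH2.conj_mem_of_le_normalizer hRZ hg.1 hg'.2) hg.2⟩
        one_mem' := ⟨one_mem _, by simp⟩
        inv_mem' := fun {g} hg => ⟨inv_mem hg.1, by
          rw [show ⁅g⁻¹, x⁆ = g⁻¹ * ⁅g, x⁆⁻¹ * g by simp [commutatorElement_def, mul_assoc]]
          exact CfsgH2.conj_mem_of_le_normalizer' hRZ hg.1 (inv_mem hg.2)⟩ }
    have c4 : R ≤ K := c3 ▸ sup_le (sup_le
      (fun e he => ⟨hER he, hRE' (commutator_mem_commutator he hx)⟩)
      (zpowers_le.2 ⟨hx, by simp⟩)) (zpowers_le.2 ⟨hy, by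
        rw [← inv_mem_iff, commutatorElement_inv]; exact cl4 x hx⟩)
    exact fun g hg => (c4 hg).2
  obtain ⟨z, hz, hz1⟩ := (Z.bot_or_exists_ne_one).resolve_left fun e => by
    rw [e, card_bot] at hZ2; omega
  have hZz : zpowers z = Z := eq_zpowers_of_prime_card (hZ2 ▸ Nat.prime_two) hz hz1
  have key : ∀ x : R, (x : G) ∈ Z → x ∈ zpowers (⟨z, hZR hz⟩ : R) := fun x hx => by
    rw [← hZz] at hx
    obtain ⟨k, hk⟩ := hx
    exact ⟨k, Subtype.ext (by simpa using hk)⟩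
  refine ⟨CfsgH2.isExtraspecial_of_sympl (z := (⟨z, hZR hz⟩ : R)) ⟨mem_center_iff.2 fun g =>
    Subtype.ext (hZC hz g g.2), fun e => hz1 (congrArg Subtype.val e), Subtype.ext ?_, mem_top _,
    fun x _ y _ => key _ (cl5 y y.2 x x.2), fun x _ => key _ ⟨pow_mem x.2 _, fun g hg =>
      (commutatorElement_eq_one_iff_mul_comm.1 (hsq x x.2 g hg (cl5 g hg x x.2))).symm⟩,
    fun x hx => key _ ⟨x.2, fun g hg => congrArg Subtype.val (hx.2 ⟨g, hg⟩ (mem_top _))⟩⟩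
    fun e => ?_, h32, E, hER, hE⟩
  · rw [← hZ2]; exact pow_card_of_mem hz
  · have := congrArg (fun X : Subgroup R => #X) e
    simp only [card_top, h32, Nat.card_zpowers, ← orderOf_coe] at this
    rw [← Nat.card_zpowers, hZz, hZ2] at this
    omega

theorem struct {A : Subgroup G} (hA : Four R b A) :
    EA 2 2 R ∨ (IsExtraspecial 2 R ∧ #R = 32 ∧ ∃ E ≤ R, EA 2 3 E) := by
  by_cases hZ : ctr R ≤ 𝒞 (zpowers b)
  · obtain ⟨A', h1, h2⟩ := h.exists_four' hA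
    exact Or.inr (h.extra h1 hZ h2)
  · obtain ⟨A', h1, h2⟩ := h.exists_four (h.two hA) inf_le_left (isMulCommutative_ctr R)
      (h.bR.trans (normalizer_le_normalizer_ctr R)) hZ
    have := h.cent_four h2 le_rfl (le_centralizer_iff.1 (h1.trans inf_le_right)) h2.le h.bR
    rw [h.RB] at this
    exact Or.inl (this ▸ h2.ea)

end Ctx
end CfsgH2J
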