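import Mathlib
import Cfsg.Agent.H2.Small2
import Cfsg.Agent.H2.Extra2
import Cfsg.Agent.H2.MaxClass
import Cfsg.Agent.H2.PCentral

/-! 2-groups without normal elementary abelian subgroups of order 8: the class two cases. -/

set_option autoImplicit false
set_option linter.unusedSectionVars false

namespace CfsgScn
open Subgroup Cfsg CfsgH2 CfsgL0
open scoped commutatorElement

variable {G : Type*} [Group G]

/-- no normal elementary abelian subgroup of order at least 8 -/
def N8 (G : Type*) [Group G] : Prop :=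
  ∀ E : Subgroup G, E.Normal → IsElementaryAbelian 2 E → Nat.card E ≤ 4

theorem inv_of_sq {x : G} (h : x ^ 2 = 1) : x⁻¹ = x :=
  inv_eq_of_mul_eq_one_right (by rwa [← sq])

theorem four_cases [Finite G] {U : Subgroup G} (h : ∀ v ∈ U, v ^ 2 = 1) (hU : Nat.card U ≤ 4)
    {z z' v : G} (hz : z ∈ U) (hz' : z' ∈ U) (z1 : z ≠ 1) (z1' : z' ≠ 1) (hne : z ≠ z')
    (hv : v ∈ U) : v = 1 ∨ v = z ∨ v = z' ∨ v = z * z' := by
  classical
  by_contra hc
  push Not at hc
  obtain ⟨h1, h2, h3, h4⟩ := hc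
  have k1 : z * z' ≠ 1 := fun e => hne (by rw [← inv_of_sq (h _ hz'), eq_inv_iff_mul_eq_one, e])
  have k2 : z * z' ≠ z := by simpa using z1'
  have k3 : z * z' ≠ z' := by simpa using z1
  have : ((({v, z * z', z', z, 1} : Finset G) : Set G)).ncard ≤ (U : Set G).ncard :=
    Set.ncard_le_ncard (by
      simp only [Finset.coe_insert, Finset.coe_singleton, Set.insert_subset_iff,
        Set.singleton_subset_iff, SetLike.mem_coe]
      exact ⟨hv, U.mul_mem hz hz', hz', hz, U.one_mem⟩)
  rw [Set.ncard_coe_finset, Finset.card_insert_of_notMem (by simp [h1, h2, h3, h4]),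
    Finset.card_insert_of_notMem (by simp [k1, k2, k3]),
    Finset.card_insert_of_notMem (by simp [z1', hne.symm]),
    Finset.card_insert_of_notMem (by simp [z1]), Finset.card_singleton] at this
  have e : (U : Set G).ncard = Nat.card U := rfl
  omega

theorem fix_of_pow {γ : MulAut G} {m n : ℕ} (hc : m.Coprime n) {x : G} (h1 : (γ ^ m) x = x)
    (h2 : (γ ^ n) x = x) : γ x = x := by
  have h1' : γ ^ m ∈ MulAction.stabilizer (MulAut G) x := h1
  have h2' : γ ^ n ∈ MulAction.stabilizer (MulAut G) x := h2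
  have := (MulAction.stabilizer (MulAut G) x).mul_mem (zpow_mem h1' (Nat.gcdA m n))
    (zpow_mem h2' (Nat.gcdB m n))
  rw [← zpow_natCast, ← zpow_natCast, ← zpow_mul, ← zpow_mul, ← zpow_add, ← Nat.gcd_eq_gcd_ab,
    hc.gcd_eq_one, Nat.cast_one, zpow_one] at this
  exact this

theorem fix_of_sq {γ : MulAut G} (ho : Odd (orderOf γ)) {x : G} (h : γ (γ x) = x) : γ x = x :=
  fix_of_pow (Nat.coprime_two_left.mpr ho) (by rw [sq]; exact h) (by rw [pow_orderOf_eq_one]; rfl)

/-- an odd order automorphism fixing an involution of a four-group fixes the four-group -/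
theorem fix_four [Finite G] {U : Subgroup G} (h : ∀ v ∈ U, v ^ 2 = 1) (hU : Nat.card U ≤ 4)
    {γ : MulAut G} (ho : Odd (orderOf γ)) (hi : ∀ v ∈ U, γ v ∈ U) {u : G} (hu : u ∈ U)
    (u1 : u ≠ 1) (hf : γ u = u) : ∀ v ∈ U, γ v = v := by
  intro v hv
  by_cases v1 : v = 1
  · simp [v1]
  by_cases vu : u = v
  · rw [← vu, hf]
  rcases four_cases h hU hu hv u1 v1 vu (hi v hv) with e | e | e | e
  · exact (v1 (γ.injective (e.trans (map_one γ).symm))).elim
  · exact (vu (γ.injective (hf.trans e.symm))).elim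
  · exact e
  · refine fix_of_sq ho ?_
    rw [e, map_mul, hf, e, ← mul_assoc, ← sq, h u hu, one_mul]

theorem card_invol [Finite G] :
    Nat.card {x : G // orderOf x = 2} + 1 = Nat.card {x : G // x ^ 2 = 1} := by
  have e1 : Nat.card {x : G // orderOf x = 2} = {x : G | orderOf x = 2}.ncard := rfl
  have e2 : Nat.card {x : G // x ^ 2 = 1} = {x : G | x ^ 2 = 1}.ncard := rfl
  rw [e1, e2, ← Set.ncard_insert_of_notMem (a := 1) (by simp)]
  congr 1
  ext x
  simp only [Set.mem_insert_iff, Set.mem_setOf_eq]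
  constructor
  · rintro (rfl | h)
    · simp
    · rw [← h, pow_orderOf_eq_one]
  · intro h
    by_cases h1 : x = 1
    · exact Or.inl h1
    · exact Or.inr (orderOf_eq_prime h h1)

variable {A : Type*} [Group A] {φ : A →* MulAut G}

theorem eq_top_of_comm (e : commAut φ ⊤ = ⊤) {K : Subgroup G} (h : ∀ a x, x⁻¹ * φ a x ∈ K) :
    K = ⊤ := top_le_iff.mp (e ▸ commAut_le.mpr fun x _ a => h a x)

theorem index_ne_two (e : commAut φ ⊤ = ⊤) {K : Subgroup G} (h : ∀ a, ∀ x ∈ K, φ a x ∈ K) :
    K.index ≠ 2 := fun hi => by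
  have : K = ⊤ := eq_top_of_comm e fun a u => by
    rw [mul_mem_iff_of_index_two hi, inv_mem_iff]
    exact ⟨h a u, fun hu => by simpa using h a⁻¹ _ hu⟩
  rw [this, index_top] at hi
  omega

theorem cop2 [Finite G] (hG : IsPGroup 2 G) (hA : Odd (Nat.card A)) (K : Subgroup G) :
    (Nat.card A).Coprime (Nat.card K) :=
  coprime_card_of_coprime_p (hG.to_subgroup K) (Nat.coprime_two_right.mpr hA)

theorem mem_of_fix_mod [Finite G] [Finite A] (hG : IsPGroup 2 G) (hA : Odd (Nat.card A))
    (e : commAut φ ⊤ = ⊤) {K : Subgroup G} (hK : commutator G ≤ K)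
    (h : ∀ a, ∀ x ∈ K, φ a x ∈ K) {x : G} (hx : ∀ a, x⁻¹ * φ a x ∈ K) : x ∈ K := by
  obtain ⟨c, hc, n, hn, rfl⟩ := exists_fix_mul φ h (cop2 hG hA K)
    (Or.inr (isSolvable_of_isPGroup (hG.to_subgroup K))) hx
  exact K.mul_mem (hK (fixAut_le_commutator φ
    (coprime_card_of_coprime_p hG (Nat.coprime_two_right.mpr hA)) e hc)) hn

theorem relIndex_ne_two [Finite G] [Finite A] (hG : IsPGroup 2 G) (hA : Odd (Nat.card A))
    (e : commAut φ ⊤ = ⊤) {K R : Subgroup G} (hK : commutator G ≤ K)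
    (h : ∀ a, ∀ x ∈ K, φ a x ∈ K) (h' : ∀ a, ∀ x ∈ R, φ a x ∈ R) : K.relIndex R ≠ 2 := fun hi => by
  have : R ≤ K := fun x hx => mem_of_fix_mod hG hA e hK h fun a => by
    have := (mul_mem_iff_of_index_two hi (a := ⟨x⁻¹, R.inv_mem hx⟩) (b := ⟨φ a x, h' a x hx⟩)).mpr
      (by
        simp only [mem_subgroupOf, inv_mem_iff]
        exact ⟨h a x, fun hu => by simpa using h a⁻¹ _ hu⟩)
    exact this
  rw [relIndex_eq_one.mpr this] at hi
  omega

theorem odd_orderOf [Finite A] (hA : Odd (Nat.card A)) (a : A) : Odd (orderOf (φ a)) :=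
  hA.of_dvd_nat ((orderOf_map_dvd φ a).trans (orderOf_dvd_natCard a))

/-- the extraspecial case -/
theorem extra_case [Finite G] (h8 : N8 G) (hna : ¬ IsMulCommutative G) (hx : IsExtraspecial 2 G)
    (e : commAut φ ⊤ = ⊤) : Nonempty (G ≃* QuaternionGroup 2) ∨
      (Nat.card G = 32 ∧ Nat.card {x : G // orderOf x = 2} = 11) := by
  obtain ⟨z, -, hs⟩ := IsExtraspecial.exists_sympl hx
  have q8 : Nat.card G = 8 → Nonempty (G ≃* QuaternionGroup 2) := fun hc =>
    quaternion_of_small hs (fun B _ hB h => (hna (by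
      have : B = ⊤ := eq_top_of_card_eq _ (h.trans hc.symm)
      rw [this] at hB
      exact ⟨⟨fun a b => isMulCommutative_iff.mp hB a (mem_top a) b (mem_top b)⟩⟩)).elim) hna e
  have small : ∀ K : Subgroup G, Sympl 2 z K → (∀ x ∈ K, x ^ 2 = 1 → x ∈ zpowers z) →
      Nat.card K = 2 ∨ Nat.card K = 8 := fun K hK h2 => by
    rcases hK.eq_or_exists with h | ⟨x, hx, y, hy, hxy⟩
    · exact Or.inl (h ▸ hK.card_zpowers)
    · have := hK.card_perp hx hy hxy
      rw [(hK.quaternion h2 hx hy hxy).2.2, hK.card_zpowers] at this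
      exact Or.inr this
  by_cases h2 : ∀ x ∈ (⊤ : Subgroup G), x ^ 2 = 1 → x ∈ zpowers z
  · rcases small ⊤ hs h2 with h | h
    · rw [card_top] at h
      exact (hna (isCyclic_of_prime_card (p := 2) h).isMulCommutative).elim
    · exact Or.inl (q8 (by rwa [card_top] at h))
  push Not at h2
  obtain ⟨x, -, hx2, hxz⟩ := h2
  obtain ⟨y, -, hxy, hy2⟩ := hs.exists_dihedral (mem_top x) hxz hx2
  have hP := hs.perp (mem_top x) (mem_top y) hxy
  have h2 : ∀ w ∈ perp ⊤ x y, w ^ 2 = 1 → w ∈ zpowers z := fun w hw hw2 => by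
    by_contra hwz
    have hzc : zpowers z ≤ center G := zpowers_le.mpr hs.central
    haveI := normal_zpowers_of_mem_center hs.central
    have c1 : w ∈ centralizer (zpowers z : Set G) := le_centralizer_iff.mp
      (hzc.trans (center_le_centralizer _)) (mem_zpowers w)
    have c2 : x ∈ centralizer ((zpowers z ⊔ zpowers w : Subgroup G) : Set G) := by
      rw [centralizer_sup]
      refine ⟨le_centralizer_iff.mp (hzc.trans (center_le_centralizer _)) (mem_zpowers x), ?_⟩
      rw [centralizer_zpowers]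
      exact mem_centralizer_singleton_iff.mpr (mem_perp.mp hw).2.1.symm
    haveI : (zpowers z ⊔ zpowers w).Normal :=
      normal_sup_zpowers fun g => hs.comm _ (mem_top _) _ (mem_top _)
    have n2 : (zpowers z ⊔ zpowers w ⊔ zpowers x).Normal :=
      normal_sup_zpowers fun g => mem_sup_left (hs.comm _ (mem_top _) _ (mem_top _))
    have := h8 _ n2 ⟨isMulCommutative_sup_zpowers (isMulCommutative_sup_zpowers inferInstance c1) c2,
      pow_eq_one_of_mem_sup (zpowers_le.mpr c2) (pow_eq_one_of_mem_sup (zpowers_le.mpr c1)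
        (pow_eq_one_of_mem_zpowers hs.pow_eq) (pow_eq_one_of_mem_zpowers hw2))
        (pow_eq_one_of_mem_zpowers hx2)⟩
    rw [card_sup_zpowers (mem_normalizer_of_normal _ x) Nat.prime_two (by rw [hx2]; exact one_mem _)
      (fun hh => hs.left_not_mem hxy ((sup_le (hs.zpowers_le_perp x y) (zpowers_le.mpr hw)) hh)),
      card_sup_zpowers (mem_normalizer_of_normal _ w) Nat.prime_two (by rw [hw2]; exact one_mem _)
      hwz, hs.card_zpowers] at this
    omega
  have hc := hs.card_perp (mem_top x) (mem_top y) hxy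
  rw [card_top] at hc
  rcases small _ hP h2 with h | h
  · exact Or.inl (q8 (by omega))
  · have h3 := hs.sqCount_dihedral (mem_top x) (mem_top y) hxy hx2 hy2
    rw [hP.sqCount_eq_two_iff.mpr h2, h, sqCount_top, ← card_invol] at h3
    exact Or.inr ⟨by omega, by omega⟩

end CfsgScn
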