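import Cfsg.Agent.H2.Scn1

/-! 2-groups without normal elementary abelian subgroups of order 8: special groups with centre
of order 4. -/

set_option autoImplicit false
set_option linter.unusedSectionVars false

namespace CfsgScn
open Subgroup Cfsg CfsgH2 CfsgL0
open scoped commutatorElement

variable {G : Type*} [Group G] [Finite G]

theorem N8.mem_of_sq (h8 : N8 G) {U : Subgroup G} (hU : U ≤ center G) (h4 : Nat.card U = 4)
    (h2 : ∀ u ∈ U, u ^ 2 = 1) {t : G} (ht : t ^ 2 = 1) (hc : ∀ g, ⁅t, g⁆ ∈ U) : t ∈ U := by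
  by_contra htU
  haveI := normal_of_le_center hU
  have c1 : t ∈ centralizer (U : Set G) :=
    le_centralizer_iff.mp (hU.trans (center_le_centralizer _)) (mem_zpowers t)
  have := h8 _ (normal_sup_zpowers hc)
    ⟨isMulCommutative_sup_zpowers (isMulCommutative_of_le hU inferInstance) c1,
      pow_eq_one_of_mem_sup (zpowers_le.mpr c1) h2 (pow_eq_one_of_mem_zpowers ht)⟩
  rw [card_sup_zpowers (mem_normalizer_of_normal _ t) Nat.prime_two (by rw [ht]; exact one_mem _)
    htU, h4] at this
  omega

theorem mul_mem_zp {U : Subgroup G} (h : ∀ v ∈ U, v ^ 2 = 1) (hU : Nat.card U ≤ 4) {u a b : G}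
    (hu : u ∈ U) (u1 : u ≠ 1) (ha : a ∈ U) (hb : b ∈ U) (ha' : a ∉ zpowers u)
    (hb' : b ∉ zpowers u) : a * b ∈ zpowers u := by
  rcases four_cases h hU ha hu (fun e => ha' (e ▸ one_mem _)) u1
    (fun e => ha' (e ▸ mem_zpowers _)) hb with e | e | e | e
  · exact (hb' (e ▸ one_mem _)).elim
  · rw [e, ← sq, h a ha]; exact one_mem _
  · exact (hb' (e ▸ mem_zpowers _)).elim
  · rw [e, ← mul_assoc, ← sq, h a ha, one_mul]; exact mem_zpowers _

structure Sp4 (G : Type*) [Group G] : Prop where
  n8 : N8 G
  card : Nat.card (center G) = 4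
  two : ∀ u ∈ center G, u ^ 2 = 1
  comm : commutator G = center G
  sq : ∀ x : G, x ^ 2 ∈ center G

namespace Sp4

theorem cm (h : Sp4 G) (x y : G) : ⁅x, y⁆ ∈ center G := h.comm ▸ comm_mem_commutator x y

theorem inv (h : Sp4 G) {t : G} (ht : t ^ 2 = 1) : t ∈ center G :=
  h.n8.mem_of_sq le_rfl h.card h.two ht (h.cm t)

theorem mul_sq (h : Sp4 G) (x y : G) : (x * y) ^ 2 = x ^ 2 * y ^ 2 * ⁅y, x⁆ := by
  rw [mul_pow_class_two (commute_of_mem_center (h.cm _ _) _) (commute_of_mem_center (h.cm _ _) _)]
  simp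

theorem normal (h : Sp4 G) {K : Subgroup G} (hK : center G ≤ K) : K.Normal :=
  ⟨fun n hn g => by
    have := K.mul_mem (hK (h.cm g n)) hn
    simpa [commutatorElement_def] using this⟩

theorem card_sup (h : Sp4 G) {K : Subgroup G} (hK : center G ≤ K) {x : G} (hx : x ∉ K) :
    Nat.card (K ⊔ zpowers x : Subgroup G) = Nat.card K * 2 := by
  haveI := h.normal hK
  exact card_sup_zpowers (mem_normalizer_of_normal _ x) Nat.prime_two (hK (h.sq x)) hx

theorem card_cent (h : Sp4 G) {x : G} (hx : x ∉ center G) :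
    Nat.card (centralizer ({x} : Set G)) ≤ 32 := by
  have u1 : x ^ 2 ≠ 1 := fun e => hx (h.inv e)
  set K := center G ⊔ zpowers x with hK
  have k8 : Nat.card K = 8 := by rw [h.card_sup le_rfl hx, h.card]
  have f1 : ∀ y ∈ centralizer ({x} : Set G), y ∉ K → y ^ 2 ∉ zpowers (x ^ 2) := by
    intro y hy hyK hh
    rcases eq_or_eq_of_mem_zpowers_two (h.two _ (h.sq x)) hh with e | e
    · exact hyK (mem_sup_left (h.inv e))
    · have c : Commute y x := mem_centralizer_singleton_iff.mp hy
      have : y * x ∈ K := mem_sup_left (h.inv (by rw [c.mul_pow, e, ← pow_two, h.two _ (h.sq x)]))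
      exact hyK ((K.mul_mem_cancel_right (mem_sup_right (mem_zpowers x))).mp this)
  have f2 : ∀ y ∈ centralizer ({x} : Set G), ∀ y' ∈ centralizer ({x} : Set G), y ∉ K → y' ∉ K →
      y' * y ∉ K → ⁅y, y'⁆ ∉ zpowers (x ^ 2) := by
    intro y hy y' hy' h1 h2 h3 hh
    refine f1 _ (mul_mem hy' hy) h3 ?_
    rw [h.mul_sq]
    exact mul_mem (mul_mem_zp h.two h.card.le (h.sq x) u1 (h.sq _) (h.sq _) (f1 _ hy' h2)
      (f1 _ hy h1)) hh
  by_cases c1 : centralizer ({x} : Set G) ≤ K
  · exact (card_le_of_le c1).trans (by omega)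
  obtain ⟨y1, hy1, n1⟩ := SetLike.not_le_iff_exists.mp c1
  set L := K ⊔ zpowers y1 with hL
  have l16 : Nat.card L = 16 := by rw [h.card_sup le_sup_left n1, k8]
  by_cases c2 : centralizer ({x} : Set G) ≤ L
  · exact (card_le_of_le c2).trans (by omega)
  obtain ⟨y2, hy2, n2⟩ := SetLike.not_le_iff_exists.mp c2
  set M := L ⊔ zpowers y2 with hM
  have m32 : Nat.card M = 32 := by
    rw [h.card_sup (le_sup_left.trans le_sup_left) n2, l16]
  refine (card_le_of_le fun y3 hy3 => ?_).trans m32.le
  by_contra n3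
  have y1L : y1 ∈ L := mem_sup_right (mem_zpowers _)
  have y2M : y2 ∈ M := mem_sup_right (mem_zpowers _)
  have g : ∀ y ∈ centralizer ({x} : Set G), y ∉ L → ⁅y1, y⁆ ∉ zpowers (x ^ 2) := fun y hy hn =>
    f2 _ hy1 _ hy n1 (fun e => hn (mem_sup_left e))
      fun e => hn ((L.mul_mem_cancel_right y1L).mp (mem_sup_left e))
  refine g _ (mul_mem hy2 hy3) (fun e => n3 ((M.mul_mem_cancel_left y2M).mp (mem_sup_left e))) ?_
  rw [comm_mul_right_of_commute (commute_of_mem_center (h.cm _ _) _)]
  exact mul_mem_zp h.two h.card.le (h.sq x) u1 (h.cm _ _) (h.cm _ _) (g _ hy2 n2)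
    (g _ hy3 fun e => n3 (mem_sup_left e))

theorem card_le (h : Sp4 G) {x : G} (hx : x ∉ center G) {K : Subgroup G}
    (hK : ∀ g : G, ⁅g, x⁆ ∈ K) : Nat.card G ≤ 32 * Nat.card K := by
  have h1 := relIndex_centralizer_le (C := ⊤) (fun c _ => hK c)
  rw [relIndex_top_right] at h1
  rw [← (centralizer ({x} : Set G)).card_mul_index]
  exact Nat.mul_le_mul (h.card_cent hx) h1

theorem exists_rad (h : Sp4 G) {u : G} (hu : u ∈ center G) (u1 : u ≠ 1)
    (hc : Nat.card G = 32 ∨ Nat.card G = 128) :
    ∃ x, x ∉ center G ∧ ∀ g, ⁅x, g⁆ ∈ zpowers u := by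
  by_contra hh
  push Not at hh
  haveI := normal_zpowers_of_mem_center hu
  have c2 : Nat.card (zpowers u) = 2 := by
    rw [Nat.card_zpowers, orderOf_eq_prime (h.two u hu) u1]
  obtain ⟨z, hz, hzu⟩ : ∃ z ∈ center G, z ∉ zpowers u := by
    by_contra hh
    push Not at hh
    have := card_le_of_le (show center G ≤ zpowers u from hh)
    rw [c2, h.card] at this
    omega
  have key : ∀ v ∈ center G, (v : G ⧸ zpowers u) ∈ zpowers (z : G ⧸ zpowers u) := by
    intro v hv
    have e1 : (u : G ⧸ zpowers u) = 1 := (QuotientGroup.eq_one_iff _).mpr (mem_zpowers u)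
    rcases four_cases h.two h.card.le hu hz u1 (fun e => hzu (e ▸ one_mem _))
      (fun e => hzu (e ▸ mem_zpowers _)) hv with e | e | e | e
    · rw [e]; exact one_mem _
    · rw [e, e1]; exact one_mem _
    · rw [e]; exact mem_zpowers _
    · rw [e, QuotientGroup.mk_mul, e1, one_mul]; exact mem_zpowers _
  have hs : Sympl 2 (z : G ⧸ zpowers u) ⊤ :=
    { central := mk_mem_center_iff.mpr fun g => by
        rw [comm_eq_one_iff.mpr (commute_of_mem_center hz g).symm]; exact one_mem _
      ne_one := fun e => hzu ((QuotientGroup.eq_one_iff _).mp e)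
      pow_eq := by rw [← QuotientGroup.mk_pow, h.two z hz, QuotientGroup.mk_one]
      mem := mem_top _
      comm := fun x _ y _ => by
        induction x using QuotientGroup.induction_on with | H x => ?_
        induction y using QuotientGroup.induction_on with | H y => ?_
        exact key _ (h.cm x y)
      pow := fun x _ => by
        induction x using QuotientGroup.induction_on with | H x => ?_
        exact key _ (h.sq x)
      nondeg := fun x hx => by
        induction x using QuotientGroup.induction_on with | H x => ?_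
        refine key x ?_
        by_contra hn
        obtain ⟨g, hg⟩ := hh x hn
        exact hg (comm_mem_iff_commute_mk.mpr (hx.2 _ (mem_top _)).symm) }
  obtain ⟨m, hm⟩ := hs.exists_card
  have := card_eq_card_quotient_mul_card_subgroup (zpowers u)
  rw [card_top] at hm
  rw [hm, c2, ← pow_succ] at this
  rcases hc with e | e
  · rw [e, show 32 = 2 ^ 5 from rfl] at this
    have := Nat.pow_right_injective le_rfl this
    omega
  · rw [e, show 128 = 2 ^ 7 from rfl] at this
    have := Nat.pow_right_injective le_rfl this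
    omega

theorem card_sq (h : Sp4 G) : Nat.card {x : G // x ^ 2 = 1} = 4 :=
  h.card ▸ Nat.card_congr (Equiv.subtypeEquivRight fun x => ⟨h.inv, h.two x⟩)

theorem mod_three (h : Sp4 G) {α : MulAut G} (ho : Odd (orderOf α)) {u : G} (hu : u ∈ center G)
    (hα : α u ≠ u) : Nat.card G % 3 = 1 := by
  classical
  haveI := Fintype.ofFinite G
  have hi : ∀ v ∈ center G, α v ∈ center G := fun v => Characteristic.apply_mem inferInstance α
  have u1 : u ≠ 1 := fun e => hα (by rw [e, map_one])
  have nf : ∀ v ∈ center G, v ≠ 1 → α v ≠ v := fun v hv v1 e =>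
    hα (fix_four h.two h.card.le ho hi hv v1 e u hu)
  have v1 : α u ≠ 1 := by simpa using u1
  have w1 : α (α u) ≠ 1 := by simpa using u1
  have wu : α (α u) ≠ u := fun e => hα (fix_of_sq ho e)
  have wv : α (α u) ≠ α u := nf _ (hi u hu) v1
  have hw : α (α u) = u * α u := by
    rcases four_cases h.two h.card.le hu (hi u hu) u1 v1 hα.symm (hi _ (hi u hu)) with e | e | e | e
    · exact (w1 e).elim
    · exact (wu e).elim
    · exact (wv e).elim
    · exact e
  have e := Finset.card_eq_sum_card_fiberwise (f := fun x : G => x ^ 2) (s := Finset.univ)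
    (t := {1, u, α u, α (α u)}) (fun x _ => by
      rw [hw]
      simpa using four_cases h.two h.card.le hu (hi u hu) u1 v1 hα.symm (h.sq x))
  have eq : ∀ v, (Finset.univ.filter fun x : G => x ^ 2 = α v).card =
      (Finset.univ.filter fun x : G => x ^ 2 = v).card := fun v =>
    (Finset.card_equiv α.toEquiv fun x => by
      simp only [Finset.mem_filter, Finset.mem_univ, true_and, MulEquiv.toEquiv_eq_coe,
        EquivLike.coe_coe, ← map_pow, EmbeddingLike.apply_eq_iff_eq]).symm
  rw [Finset.sum_insert (by simp [u1.symm, v1.symm, w1.symm]),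
    Finset.sum_insert (by simp [hα.symm, wu.symm]), Finset.sum_insert (by simp [wv.symm, hα.symm]),
    Finset.sum_singleton, eq (α u), eq u, Finset.card_univ, ← Nat.card_eq_fintype_card,
    ← Fintype.card_subtype, ← Nat.card_eq_fintype_card, h.card_sq] at e
  omega

variable {A : Type*} [Group A] [Finite A] {φ : A →* MulAut G}

theorem card_eq (h : Sp4 G) (hG : IsPGroup 2 G) (hA : Odd (Nat.card A)) (e : commAut φ ⊤ = ⊤) :
    Nat.card G = 64 := by
  have nc : ∀ v : G, v ^ 2 = 1 → ¬ center G ≤ zpowers v := fun v hv hh => by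
    have h1 := card_le_of_le hh
    have h2 := orderOf_le_of_pow_eq_one two_pos hv
    rw [h.card, Nat.card_zpowers] at h1
    omega
  obtain ⟨x, hx⟩ : ∃ x, x ∉ center G := by
    by_contra hh
    push Not at hh
    refine nc 1 (one_pow _) ?_
    rw [← h.comm, commutator_def, commutator_le]
    intro a _ b _
    rw [comm_eq_one_iff.mpr (commute_of_mem_center (hh b) a)]
    exact one_mem _
  obtain ⟨u, hu, u1⟩ : ∃ u ∈ center G, u ≠ 1 := ⟨_, h.sq x, fun e => hx (h.inv e)⟩
  have c2 : Nat.card (zpowers u) = 2 := by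
    rw [Nat.card_zpowers, orderOf_eq_prime (h.two u hu) u1]
  have k8 : Nat.card (center G ⊔ zpowers x : Subgroup G) = 8 := by
    rw [h.card_sup le_rfl hx, h.card]
  have hi := (center G ⊔ zpowers x).card_mul_index
  rw [k8] at hi
  have i1 : (center G ⊔ zpowers x).index ≠ 1 := fun e => by
    have hc := isMulCommutative_sup_zpowers (K := center G) inferInstance (x := x)
      (le_centralizer_iff.mp (center_le_centralizer _) (mem_zpowers x))
    rw [index_eq_one.mp e] at hc
    exact hx (mem_center_iff.mpr fun g => isMulCommutative_iff.mp hc g (mem_top _) x (mem_top _))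
  have i2 : (center G ⊔ zpowers x).index ≠ 2 := fun e => by
    obtain ⟨b, hb⟩ : ∃ b, b ∉ center G ⊔ zpowers x := by
      by_contra hh
      push Not at hh
      exact i1 (index_eq_one.mpr (eq_top_iff.mpr fun b _ => hh b))
    exact nc _ (h.two _ (h.cm x b)) (h.comm ▸ (commutator_eq_zpowers le_rfl rfl e hb).le)
  have u128 := h.card_le hx (fun g => h.cm g x)
  rw [h.card] at u128
  have n128 : Nat.card G ≠ 128 := fun e => by
    obtain ⟨y, hy, hy'⟩ := h.exists_rad hu u1 (Or.inr e)
    have := h.card_le hy fun g => comm_mem_symm (hy' g)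
    omega
  have n32 : Nat.card G ≠ 32 := fun e32 => by
    by_cases hf : ∀ a, φ a u = u
    · obtain ⟨y, hy, hy'⟩ := h.exists_rad hu u1 (Or.inl e32)
      haveI := normal_zpowers_of_mem_center hu
      set R := centralMod 0 (zpowers u) with hR
      have hinv : ∀ a, ∀ x ∈ R, φ a x ∈ R := fun a => centralMod_invariant 0 (φ a) (by
        rintro _ ⟨k, rfl⟩
        simp only [map_zpow, hf]
        exact zpow_mem_zpowers u k)
      have hle : center G ≤ R := fun v hv => ⟨by simp, fun g => by
        rw [comm_eq_one_iff.mpr (commute_of_mem_center hv g).symm]; exact one_mem _⟩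
      have a1 := relIndex_mul_index hle
      have a2 := (center G).card_mul_index
      have a3 : (center G).relIndex R ≠ 1 := fun e => hy (relIndex_eq_one.mp e ⟨by simp, hy'⟩)
      have a4 := relIndex_ne_two hG hA e h.comm.le
        (fun a _ => Characteristic.apply_mem inferInstance (φ a)) hinv
      have a5 := index_ne_two e hinv
      have a6 : R.index ≠ 1 := fun e => nc u (h.two u hu) (by
        rw [← h.comm, commutator_def, commutator_le]
        intro a _ b _
        exact ((index_eq_one.mp e ▸ mem_top a : a ∈ R)).2 b)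
      rw [h.card, e32] at a2
      have a7 : (center G).relIndex R * R.index = 8 := by omega
      have a8 : R.index ≤ 8 := Nat.le_of_dvd (by norm_num) (Dvd.intro_left _ a7)
      generalize R.index = i at *
      generalize (center G).relIndex R = j at *
      interval_cases i <;> omega
    · push Not at hf
      obtain ⟨a, ha⟩ := hf
      have := h.mod_three (odd_orderOf hA a) hu ha
      omega
  obtain ⟨n, hn⟩ := IsPGroup.iff_card.mp hG
  have : n ≤ 7 := by
    rw [hn] at u128
    exact (Nat.pow_le_pow_iff_right (by norm_num : 1 < 2)).mp u128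
  interval_cases n <;> omega

theorem main (h : Sp4 G) (hG : IsPGroup 2 G) (hA : Odd (Nat.card A)) (e : commAut φ ⊤ = ⊤) :
    Nat.card G = 64 ∧ Nat.card {x : G // orderOf x = 2} = 3 ∧
      ∀ x : G, orderOf x = 2 → x ∈ center G :=
  ⟨h.card_eq hG hA e, by have := card_invol (G := G); rw [h.card_sq] at this; omega,
    fun x hx => h.inv (hx ▸ pow_orderOf_eq_one x)⟩

end Sp4

end CfsgScn
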