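import Cfsg.Agent.H2.Scn2

/-! Fixed-point-free automorphisms of order three; the homocyclic case. -/

set_option autoImplicit false
set_option linter.unusedSectionVars false

namespace CfsgScn
open Subgroup Cfsg CfsgH2 CfsgL0
open scoped commutatorElement

variable {G : Type*} [Group G] [Finite G]

theorem aut_eq_one_of_fix_four (hG : IsPGroup 2 G) {a : MulAut G} (ha : Odd (orderOf a))
    (h : ∀ x, x ^ 4 = 1 → a x = x) : a = 1 := by
  obtain ⟨H, hH⟩ := exists_isCritical hG
  have := hH.char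
  have ha' := Nat.coprime_two_right.mpr ha
  refine aut_eq_one_of_self_centralizing hG hH.centralizer_le ha' fun x hx => ?_
  have hZ := aut_fix_abelian ha' (Z := H ⊓ centralizer (H : Set G)) (hG.to_subgroup _)
    (isMulCommutative_iff.mpr fun a ha b hb => hb.2 a ha.1)
    (fun x hx => Characteristic.apply_mem inferInstance a hx)
    (fun x _ h2 => h x (by rw [show 4 = 2 * 2 from rfl, pow_mul, h2, one_pow]))
  have hax : a x ∈ H := Characteristic.apply_mem this a hx
  have h2 : (x⁻¹ * a x) ^ 4 = 1 := by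
    rw [mul_pow_class_two (hH.commute_comm hax (inv_mem hx)) (hH.commute_comm hax hax),
      show Nat.choose 4 2 = 2 * 3 by decide, pow_mul, hH.comm_pow_eq_one hax (inv_mem hx), one_pow,
      mul_one, show 4 = 2 * 2 from rfl, pow_mul, pow_mul, ← map_pow,
      hZ _ ⟨pow_mem hx 2, hH.pow_mem x hx⟩, inv_pow, inv_pow, inv_mul_cancel]
  exact aut_apply_eq_of_fixed ha' (k := 2) (h _ h2) h2

section Fpf
variable {β : MulAut G}

theorem fpf_surj (hf : ∀ x, β x = x → x = 1) (g : G) : ∃ c, c⁻¹ * β c = g :=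
  Finite.surjective_of_injective (f := fun c => c⁻¹ * β c) (fun c d e => by
    have : β (c * d⁻¹) = c * d⁻¹ := by
      simp only at e
      rw [map_mul, map_inv, mul_inv_eq_iff_eq_mul, mul_assoc, ← e, mul_inv_cancel_left]
    exact mul_inv_eq_one.mp (hf _ this)) g

theorem fpf_prod (hf : ∀ x, β x = x → x = 1) (h3 : ∀ x, β (β (β x)) = x) (y : G) :
    y * β y * β (β y) = 1 := by
  obtain ⟨c, rfl⟩ := fpf_surj hf y
  simp only [map_mul, map_inv, h3]
  group

theorem fpf_sq (hf : ∀ x, β x = x → x = 1) (h3 : ∀ x, β (β (β x)) = x) :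
    (∀ x, (β * β) x = x → x = 1) ∧ ∀ x, (β * β) ((β * β) ((β * β) x)) = x :=
  ⟨fun x e => hf x (by have := h3 x; rwa [← MulAut.mul_apply _ β β x, e] at this), fun x => by
    simp only [MulAut.mul_apply, h3]⟩

theorem fpf_comm1 (hf : ∀ x, β x = x → x = 1) (h3 : ∀ x, β (β (β x)) = x) (y : G) :
    Commute y (β y) := by
  have e1 := fpf_prod hf h3 (β (β y))
  have e2 := fpf_prod (fpf_sq hf h3).1 (fpf_sq hf h3).2 (β (β y))
  simp only [MulAut.mul_apply, h3, mul_assoc] at e1 e2
  exact mul_left_cancel (e1.trans e2.symm)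

theorem fpf_comm2 (hf : ∀ x, β x = x → x = 1) (h3 : ∀ x, β (β (β x)) = x) (y g : G) :
    Commute y (g * β y * g⁻¹) := by
  obtain ⟨c, rfl⟩ := fpf_surj hf g
  have := (fpf_comm1 hf h3 (c * y * c⁻¹)).conj c⁻¹
  simp only [map_mul, map_inv] at this
  convert this using 1 <;> group

theorem fpf_comm (hf : ∀ x, β x = x → x = 1) (h3 : ∀ x, β (β (β x)) = x) (i : ℕ) (y g : G) :
    Commute y (g * (β ^ i) y * g⁻¹) := by
  have c1 := fpf_comm2 hf h3 y g
  have c2 := fpf_comm2 (fpf_sq hf h3).1 (fpf_sq hf h3).2 y g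
  have e3 : β ^ 3 = 1 := MulEquiv.ext fun x => h3 x
  rw [pow_eq_pow_mod i e3]
  have : i % 3 < 3 := Nat.mod_lt _ (by norm_num)
  interval_cases i % 3
  · have e := fpf_prod hf h3 y
    rw [mul_assoc, mul_eq_one_iff_eq_inv] at e
    have := (c1.mul_right c2).inv_right
    rw [pow_zero, MulAut.one_apply]
    convert this using 1
    rw [MulAut.mul_apply]
    conv_lhs => rw [e]
    group
  · rwa [pow_one]
  · rwa [sq]

/-- the normal closure of the orbit of `x` -/
def orb (β : MulAut G) (x : G) : Subgroup G := closure {y | ∃ g, ∃ i : ℕ, y = g * (β ^ i) x * g⁻¹}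

theorem mem_orb (x : G) : x ∈ orb β x := subset_closure ⟨1, 0, by simp⟩

instance orb_normal (x : G) : (orb β x).Normal := ⟨fun n hn g => by
  induction hn using closure_induction with
  | mem y hy =>
    obtain ⟨c, i, rfl⟩ := hy
    exact subset_closure ⟨g * c, i, by group⟩
  | one => simp
  | mul y z _ _ h1 h2 => simpa [mul_assoc] using mul_mem h1 h2
  | inv y _ h1 => simpa [mul_assoc] using inv_mem h1⟩

theorem orb_inv (x : G) : ∀ n ∈ orb β x, β n ∈ orb β x := fun n hn => by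
  induction hn using closure_induction with
  | mem y hy =>
    obtain ⟨c, i, rfl⟩ := hy
    exact subset_closure ⟨β c, i + 1, by simp [pow_succ']⟩
  | one => simp
  | mul y z _ _ h1 h2 => simpa using mul_mem h1 h2
  | inv y _ h1 => simpa using h1

theorem orb_comm (hf : ∀ x, β x = x → x = 1) (h3 : ∀ x, β (β (β x)) = x) (x : G) :
    IsMulCommutative (orb β x) := by
  have e3 : β ^ 3 = 1 := MulEquiv.ext fun x => h3 x
  have : orb β x ≤ centralizer (orb β x : Set G) := by
    rw [orb, centralizer_closure, closure_le]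
    rintro _ ⟨g, i, rfl⟩ _ ⟨c, j, rfl⟩
    have := (fpf_comm hf h3 (i + 2 * j) ((β ^ j) x) (c⁻¹ * g)).conj c
    rw [← MulAut.mul_apply, ← pow_add, show i + 2 * j + j = i + 3 * j by ring, pow_add, pow_mul, e3,
      one_pow, mul_one] at this
    convert this.eq using 1 <;> group
  exact isMulCommutative_iff.mpr fun a ha b hb => this hb a ha

theorem orb_sq (hf : ∀ x, β x = x → x = 1) (h3 : ∀ x, β (β (β x)) = x) (x : G) :
    ∀ n ∈ orb β (x ^ 2), ∃ m ∈ orb β x, m ^ 2 = n := fun n hn => by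
  induction hn using closure_induction with
  | mem y hy =>
    obtain ⟨c, i, rfl⟩ := hy
    exact ⟨_, subset_closure ⟨c, i, rfl⟩, by simp⟩
  | one => exact ⟨1, one_mem _, one_pow _⟩
  | mul y z _ _ h1 h2 =>
    obtain ⟨m, hm, rfl⟩ := h1
    obtain ⟨m', hm', rfl⟩ := h2
    exact ⟨m * m', mul_mem hm hm', Commute.mul_pow
      (isMulCommutative_iff.mp (orb_comm hf h3 x) m hm m' hm') 2⟩
  | inv y _ h1 =>
    obtain ⟨m, hm, rfl⟩ := h1
    exact ⟨m⁻¹, inv_mem hm, inv_pow _ _⟩

end Fpf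

/-- elements of order at most two of an abelian subgroup -/
def om (B : Subgroup G) (hB : IsMulCommutative B) : Subgroup G where
  carrier := {x | x ∈ B ∧ x ^ 2 = 1}
  one_mem' := ⟨one_mem _, one_pow _⟩
  mul_mem' := fun {x y} hx hy => ⟨mul_mem hx.1 hy.1, by
    rw [Commute.mul_pow (isMulCommutative_iff.mp hB x hx.1 y hy.1), hx.2, hy.2, one_mul]⟩
  inv_mem' := fun {x} hx => ⟨inv_mem hx.1, by rw [inv_pow, hx.2, inv_one]⟩

theorem om_normal (B : Subgroup G) [h : B.Normal] (hB : IsMulCommutative B) : (om B hB).Normal :=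
  ⟨fun n hn g => ⟨h.conj_mem n hn.1 g, by rw [conj_pow, hn.2]; simp⟩⟩

theorem om_elem (B : Subgroup G) (hB : IsMulCommutative B) : IsElementaryAbelian 2 (om B hB) :=
  ⟨isMulCommutative_of_le (fun _ h => h.1) hB, fun _ h => h.2⟩

/-- the setting in which an odd order automorphism moves a central involution -/
structure Mv (α : MulAut G) : Prop where
  pg : IsPGroup 2 G
  n8 : N8 G
  odd : Odd (orderOf α)
  mv : ∃ u ∈ omegaZ 2 G, α u ≠ u

namespace Mv
variable {α : MulAut G}

local notation "U" => omegaZ 2 G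
local notation "H" => centralMod 2 (omegaZ 2 G)

theorem two : ∀ v ∈ U, v ^ 2 = 1 := fun _ h => h.2
theorem cen : U ≤ center G := fun _ h => h.1
theorem uinv (γ : MulAut G) : ∀ v ∈ U, γ v ∈ U := fun _ => Characteristic.apply_mem inferInstance γ
theorem hinv (γ : MulAut G) : ∀ v ∈ H, γ v ∈ H := fun _ => Characteristic.apply_mem inferInstance γ

theorem le4 (h : Mv α) : Nat.card U ≤ 4 := h.n8 _ inferInstance isElementaryAbelian_omegaZ

theorem ne (h : Mv α) {v : G} (hv : v ∈ U) (v1 : v ≠ 1) : α v ≠ v := fun e => by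
  obtain ⟨u, hu, hu'⟩ := h.mv
  exact hu' (fix_four two h.le4 h.odd (uinv α) hv v1 e u hu)

theorem cases (h : Mv α) {u v : G} (hu : u ∈ U) (u1 : u ≠ 1) (hv : v ∈ U) :
    v = 1 ∨ v = u ∨ v = α u ∨ v = u * α u :=
  four_cases two h.le4 hu (uinv α u hu) u1 (by simpa using u1) (h.ne hu u1).symm hv

theorem exists_ne (h : Mv α) : ∃ u ∈ U, u ≠ 1 := by
  obtain ⟨u, hu, hu'⟩ := h.mv
  exact ⟨u, hu, fun e => hu' (by rw [e, map_one])⟩

theorem card (h : Mv α) : Nat.card U = 4 := by
  obtain ⟨u, hu, u1⟩ := h.exists_ne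
  haveI := normal_zpowers_of_mem_center hu.1
  have := card_le_of_le (sup_le (zpowers_le.mpr hu) (zpowers_le.mpr (uinv α u hu)))
  rw [card_sup_zpowers (mem_normalizer_of_normal _ _) Nat.prime_two
    (by rw [(uinv α u hu).2]; exact one_mem _) (fun hh => by
      rcases eq_or_eq_of_mem_zpowers_two hu.2 hh with e | e
      · exact u1 (by simpa using e)
      · exact h.ne hu u1 e), Nat.card_zpowers, orderOf_eq_prime hu.2 u1] at this
  exact le_antisymm h.le4 this

theorem sq_eq (h : Mv α) {u : G} (hu : u ∈ U) (u1 : u ≠ 1) : α (α u) = u * α u := by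
  rcases h.cases hu u1 (uinv α _ (uinv α u hu)) with e | e | e | e
  · exact (u1 (by simpa using e)).elim
  · exact (h.ne hu u1 (fix_of_sq h.odd e)).elim
  · exact (h.ne (uinv α u hu) (by simpa using u1) e).elim
  · exact e

theorem memH (h : Mv α) {t : G} (ht : t ∈ H) (h2 : t ^ 2 = 1) : t ∈ U :=
  h.n8.mem_of_sq cen h.card two h2 ht.2

theorem memB (h : Mv α) {B : Subgroup G} [B.Normal] (hB : IsMulCommutative B) {t : G} (ht : t ∈ B)
    (h2 : t ^ 2 = 1) : t ∈ U := by
  haveI := om_normal B hB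
  have c : om B hB ≤ centralizer (U : Set G) :=
    le_centralizer_iff.mp (cen.trans (center_le_centralizer _))
  have := h.n8 (U ⊔ om B hB) inferInstance
    ⟨isMulCommutative_sup isElementaryAbelian_omegaZ.1 (om_elem B hB).1 c,
      pow_eq_one_of_mem_sup c two (om_elem B hB).2⟩
  rw [← h.card] at this
  rw [eq_of_le_of_card_ge le_sup_left this]
  exact mem_sup_right ⟨ht, h2⟩

theorem le_of_ne_bot (h : Mv α) {N : Subgroup G} [N.Normal] (hN : N ≠ ⊥) (hi : ∀ x ∈ N, α x ∈ N) :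
    U ≤ N := fun v hv => by
  obtain ⟨z, hz, z1, z2, zc⟩ := exists_central_order_p h.pg hN
  rcases h.cases ⟨zc, z2⟩ z1 hv with e | e | e | e <;> rw [e]
  exacts [one_mem _, hz, hi z hz, mul_mem hz (hi z hz)]

theorem sq_surj (h : Mv α) {N : Subgroup G} (hN : IsMulCommutative N) (hi : ∀ x ∈ N, α x ∈ N)
    {x : G} (hx : x ∈ N) (h1 : x ^ 2 ∈ U) (h2 : x ^ 2 ≠ 1) : ∀ v ∈ U, ∃ w ∈ N, w ^ 2 = v := by
  intro v hv
  rcases h.cases h1 h2 hv with e | e | e | e <;> rw [e]
  · exact ⟨1, one_mem _, one_pow _⟩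
  · exact ⟨x, hx, rfl⟩
  · exact ⟨α x, hi x hx, (map_pow _ _ _).symm⟩
  · exact ⟨x * α x, mul_mem hx (hi x hx), by
      rw [Commute.mul_pow (isMulCommutative_iff.mp hN _ hx _ (hi x hx)), map_pow]⟩

theorem comm_le_cent : commutator G ≤ centralizer (H : Set G) := by
  have := commutator_centralMod_zero (G := G)
  rw [commutator_eq_bot_iff_le_centralizer] at this
  exact this.trans (centralizer_le fun x hx => ⟨by simp, fun g => cen (hx.2 g)⟩)

/-- case (a) -/
theorem sp4 (h : Mv α) (hna : ¬ IsMulCommutative G) (hW : H ⊓ centralizer (H : Set G) ≤ U) :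
    Sp4 G ∧ IsSpecial 2 G := by
  have f1 : frattini G ≤ centralizer (H : Set G) := frattini_le_of_comm_pow (p := 2)
    (fun x y => comm_le_cent (comm_mem_commutator x y)) fun x y hy => by
      have := comm_pow_right (commute_of_mem_center (cen (hy.2 x)) x) 2
      rw [two _ (hy.2 x), comm_eq_one_iff] at this
      exact this
  have f2 : frattini G ≤ U := by
    by_contra hh
    obtain ⟨x, hx, hxU, h1, h2⟩ := exists_central_mod' h.pg hh
    exact hxU (hW ⟨⟨h1, h2⟩, f1 hx⟩)
  have f3 : U ≤ commutator G := h.le_of_ne_bot (fun h0 => hna ⟨⟨fun x y =>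
      (comm_eq_one_iff.mp (mem_bot.mp (h0 ▸ comm_mem_commutator x y))).eq⟩⟩)
      fun _ => Characteristic.apply_mem inferInstance α
  have f4 := commutator_le_frattini h.pg
  have f5 : center G = U := le_antisymm (fun z hz => hW ⟨⟨f2 (pow_mem_frattini h.pg z), fun g =>
    f2 (comm_mem_frattini h.pg z g)⟩, center_le_centralizer _ hz⟩) cen
  have f6 : commutator G = center G := f5 ▸ le_antisymm (f4.trans f2) f3
  exact ⟨⟨h.n8, f5 ▸ h.card, f5 ▸ two, f6, fun x => f5 ▸ f2 (pow_mem_frattini h.pg x)⟩,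
    h.pg, f5 ▸ le_antisymm f2 (f3.trans f4), f6⟩

theorem le_of_sq (h : Mv α) {N : Subgroup G} (hc : N ≤ centralizer (H : Set G))
    (hs : ∀ v ∈ U, ∃ w ∈ N ⊓ H, w ^ 2 = v) : H ≤ N := fun x hx => by
  obtain ⟨w, hw, e⟩ := hs _ hx.1
  have c : Commute x w := hc hw.1 x hx
  have := h.memH (mul_mem hx (inv_mem hw.2)) (by
    rw [c.inv_right.mul_pow, inv_pow, e, mul_inv_cancel])
  obtain ⟨w', hw', e'⟩ := hs _ this
  exact (N.mul_mem_cancel_right (inv_mem hw.1)).mp (e' ▸ pow_mem hw'.1 2)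

theorem comm_H (h : Mv α) (hW : ¬ H ⊓ centralizer (H : Set G) ≤ U) :
    IsMulCommutative H ∧ ∀ v ∈ U, ∃ w ∈ H, w ^ 2 = v := by
  obtain ⟨x, hx, hxU⟩ := SetLike.not_le_iff_exists.mp hW
  have := h.sq_surj (N := H ⊓ centralizer (H : Set G))
    (isMulCommutative_iff.mpr fun a ha b hb => hb.2 a ha.1)
    (fun _ => Characteristic.apply_mem inferInstance α) hx hx.1.1 fun e => hxU (h.memH hx.1 e)
  have h2 : H ≤ centralizer (H : Set G) := h.le_of_sq le_rfl fun v hv => by
    obtain ⟨w, hw, e⟩ := this v hv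
    exact ⟨w, ⟨hw.2, hw.1⟩, e⟩
  exact ⟨isMulCommutative_iff.mpr fun a ha b hb => h2 hb a ha, fun v hv =>
    (this v hv).imp fun w hw => ⟨hw.1.1, hw.2⟩⟩

theorem alperin (h : Mv α) (hW : ¬ H ⊓ centralizer (H : Set G) ≤ U) {x : G}
    (hx : x ∈ centralizer (H : Set G)) (h4 : x ^ 4 = 1) : x ∈ H := by
  obtain ⟨hc, hs⟩ := h.comm_H hW
  refine mem_of_maximal_abelian_exponent h.pg (n := 2) (by norm_num) hc (fun a ha => ?_)
    (fun B hB hBc hBe hle => le_antisymm (fun b hb => ?_) hle) hx h4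
  · rw [pow_two 2, pow_mul, two _ ha.1]
  · obtain ⟨w, hw, e⟩ := hs _ (h.memB hBc (pow_mem hb 2) (by rw [← pow_mul]; exact hBe b hb))
    have c : Commute b w := isMulCommutative_iff.mp hBc b hb w (hle hw)
    have := h.memB hBc (mul_mem hb (inv_mem (hle hw))) (by
      rw [c.inv_right.mul_pow, inv_pow, e, mul_inv_cancel])
    exact ((H).mul_mem_cancel_right (inv_mem hw)).mp (le_centralMod _ _ this)

theorem aut_eq_one (h : Mv α) (hW : ¬ H ⊓ centralizer (H : Set G) ≤ U) {γ : MulAut G}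
    (ho : Odd (orderOf γ)) {u : G} (hu : u ∈ U) (u1 : u ≠ 1) (hf : γ u = u) : γ = 1 := by
  obtain ⟨hc, -⟩ := h.comm_H hW
  have ho' := Nat.coprime_two_right.mpr ho
  have f1 := aut_fix_abelian ho' (h.pg.to_subgroup _) hc (hinv γ) fun x hx h2 =>
    fix_four two h.le4 ho (uinv γ) hu u1 hf x (h.memH hx h2)
  have le : H ≤ centralizer (H : Set G) := fun b hb a ha => isMulCommutative_iff.mp hc a ha b hb
  refine aut_eq_one_of_self_centralizing h.pg
    (centralizer_le le : centralizer (centralizer (H : Set G) : Set G) ≤ _) ho' fun x hx => ?_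
  let ψ := restrAut (MonoidHom.id (MulAut G)) (centralizer (H : Set G))
    fun a _ => Characteristic.apply_mem inferInstance a
  have := aut_eq_one_of_fix_four (h.pg.to_subgroup _) (a := ψ γ)
    (ho.of_dvd_nat (orderOf_map_dvd ψ γ)) fun y hy =>
      Subtype.ext (f1 y (h.alperin hW y.2 (by simpa using congrArg Subtype.val hy)))
  exact congrArg Subtype.val (DFunLike.congr_fun this ⟨x, hx⟩)

theorem cube (h : Mv α) (hW : ¬ H ⊓ centralizer (H : Set G) ≤ U) : ∀ x, α (α (α x)) = x := by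
  obtain ⟨u, hu, u1⟩ := h.exists_ne
  have : α ^ 3 = 1 := h.aut_eq_one hW (h.odd.of_dvd_nat (orderOf_pow_dvd 3)) hu u1 (by
    change α (α (α u)) = u
    rw [h.sq_eq (uinv α u hu) (by simpa using u1), h.sq_eq hu u1,
      (commute_of_mem_center hu.1 (α u)).symm.eq, ← mul_assoc, ← sq, (uinv α u hu).2, one_mul])
  exact fun x => DFunLike.congr_fun this x

theorem abelian (h : Mv α) (hW : ¬ H ⊓ centralizer (H : Set G) ≤ U)
    (hf : ∀ x, α x = x → x = 1) : IsMulCommutative G := by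
  have h3 := h.cube hW
  obtain ⟨hc, -⟩ := h.comm_H hW
  have f1 : ∀ y, y ∉ U → H ≤ orb α y := fun y hy => by
    obtain ⟨x, hx, hxU, h1, h2⟩ := exists_central_mod' h.pg (N := orb α y) (K := U)
      fun hh => hy (hh (mem_orb y))
    have := h.le_of_sq (N := orb α y ⊓ H) (fun b hb a ha => isMulCommutative_iff.mp hc a ha b hb.2)
      (by
        rw [inf_assoc, inf_idem]
        exact h.sq_surj (isMulCommutative_of_le inf_le_right hc)
          (fun x hx => ⟨orb_inv y x hx.1, hinv α x hx.2⟩) ⟨hx, h1, h2⟩ h1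
          fun e => hxU (h.memH ⟨h1, h2⟩ e))
    exact this.trans inf_le_left
  have f2 : ∀ x : G, x ^ 4 = 1 → x ∈ H := fun x hx => by
    by_cases hxU : x ∈ U
    · exact le_centralMod _ _ hxU
    · exact h.alperin hW (fun a ha => isMulCommutative_iff.mp (orb_comm hf h3 x) a (f1 x hxU ha) x
        (mem_orb x)) hx
  have f3 : ∀ (k : ℕ) (x y : G), x ^ 2 ^ k = 1 → (∀ j : ℕ, y ^ 2 ^ j = 1 → x ^ 2 ^ j = 1) →
      x ∈ orb α y := by
    intro k
    induction k with
    | zero => intro x y hx _; rw [pow_zero, pow_one] at hx; rw [hx]; exact one_mem _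
    | succ k ih =>
      intro x y hx hxy
      by_cases x2 : x ^ 2 = 1
      · by_cases y1 : y = 1
        · have := hxy 0 (by simp [y1])
          rw [pow_zero, pow_one] at this
          rw [this]; exact one_mem _
        · exact h.le_of_ne_bot (fun h0 => y1 (mem_bot.mp (h0 ▸ mem_orb y))) (orb_inv y)
            (h.memH (f2 x (by rw [show 4 = 2 * 2 from rfl, pow_mul, x2, one_pow])) x2)
      have yU : y ∉ U := fun hy => x2 (by simpa using hxy 1 (by simpa using hy.2))
      obtain ⟨m, hm, e⟩ := orb_sq hf h3 y _ (ih (x ^ 2) (y ^ 2) (by rw [← pow_mul, ← pow_succ', hx])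
        fun j hj => by
          rw [← pow_mul, ← pow_succ'] at hj ⊢
          exact hxy _ hj)
      have c1 : Commute x ⁅m⁻¹, x⁆ := isMulCommutative_iff.mp (orb_comm hf h3 x) _ (mem_orb x) _ (by
        have := mul_mem ((orb_normal x).conj_mem x (mem_orb (β := α) x) m⁻¹) (inv_mem (mem_orb x))
        exact this)
      have c2 : Commute m⁻¹ ⁅m⁻¹, x⁆ := isMulCommutative_iff.mp (orb_comm hf h3 y) _ (inv_mem hm) _ (by
        have := mul_mem (inv_mem hm) ((orb_normal y).conj_mem _ (inv_mem (inv_mem hm)) x)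
        simpa only [commutatorElement_def, mul_assoc] using this)
      have c3 : ⁅m⁻¹, x⁆ ^ 2 = 1 := by
        rw [← comm_pow_right c1, ← e, comm_eq_one_iff]
        exact ((Commute.refl m).pow_right 2).inv_left
      have := f2 (x * m⁻¹) (by
        rw [mul_pow_class_two c1 c2, show Nat.choose 4 2 = 2 * 3 by decide, pow_mul, c3, one_pow,
          mul_one, show 4 = 2 * 2 from rfl, pow_mul, pow_mul, inv_pow, e, inv_pow, mul_inv_cancel])
      exact ((orb α y).mul_mem_cancel_right (inv_mem hm)).mp (f1 y yU this)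
  refine ⟨⟨fun x y => ?_⟩⟩
  obtain ⟨k, hk⟩ := h.pg x
  obtain ⟨l, hl⟩ := h.pg y
  by_cases hxy : ∀ j : ℕ, y ^ 2 ^ j = 1 → x ^ 2 ^ j = 1
  · exact isMulCommutative_iff.mp (orb_comm hf h3 y) _ (f3 k x y hk hxy) _ (mem_orb y)
  · push Not at hxy
    obtain ⟨j, h1, h2⟩ := hxy
    refine isMulCommutative_iff.mp (orb_comm hf h3 x) _ (mem_orb x) _ (f3 l y x hl fun i hi => ?_)
    rcases le_total i j with hij | hij
    · obtain ⟨d, rfl⟩ := Nat.exists_eq_add_of_le hij
      exact (h2 (by rw [pow_add, pow_mul, hi, one_pow])).elim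
    · obtain ⟨d, rfl⟩ := Nat.exists_eq_add_of_le hij
      rw [pow_add, pow_mul, h1, one_pow]

end Mv

variable {A : Type*} [Group A] [Finite A] {φ : A →* MulAut G}

theorem Mv.fpf {a : A} (h : Mv (φ a)) (hA : Odd (Nat.card A)) (e : commAut φ ⊤ = ⊤)
    (hW : ¬ centralMod 2 (omegaZ 2 G) ⊓ centralizer (centralMod 2 (omegaZ 2 G) : Set G) ≤
      omegaZ 2 G) : ∀ x, φ a x = x → x = 1 := by
  obtain ⟨u, hu, u1⟩ := h.exists_ne
  have f1 : ∀ b, ∃ i : ℕ, φ b = φ a ^ i := fun b => by
    have : ∃ i : ℕ, φ b u = (φ a ^ i) u := by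
      rcases h.cases hu u1 (Mv.uinv (φ b) u hu) with e | e | e | e
      · exact (u1 (by simpa using e)).elim
      · exact ⟨0, e⟩
      · exact ⟨1, by rw [e, pow_one]⟩
      · exact ⟨2, by rw [e, ← h.sq_eq hu u1]; rfl⟩
    obtain ⟨i, hi⟩ := this
    have := h.aut_eq_one hW (odd_orderOf (φ := φ) hA ((a ^ i)⁻¹ * b)) hu u1 (by
      rw [map_mul, map_inv, map_pow, MulAut.mul_apply, hi]
      simp)
    rw [map_mul, map_inv, map_pow, inv_mul_eq_one] at this
    exact ⟨i, this.symm⟩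
  intro x hx
  by_contra x1
  have hx' : x ∈ fixAut φ := fun b => by
    obtain ⟨i, hi⟩ := f1 b
    rw [hi]
    exact (MulAction.stabilizer (MulAut G) x).pow_mem hx i
  obtain ⟨m, hm⟩ := h.pg x
  obtain ⟨j, h1, h2⟩ := exists_pow_not_mem (K := ⊥) hm (by simpa using x1)
  rw [mem_bot] at h1 h2
  have h3 := pow_mem hx' (2 ^ j)
  exact h.ne (h.memH (h.alperin hW (Mv.comm_le_cent (fixAut_le_commutator φ
    (coprime_card_of_coprime_p h.pg (Nat.coprime_two_right.mpr hA)) e h3))
    (by rw [show 4 = 2 * 2 from rfl, pow_mul, h2, one_pow])) h2) h1 (h3 a)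

theorem main (hG : IsPGroup 2 G) (h8 : N8 G) (hna : ¬ IsMulCommutative G)
    (hA : Odd (Nat.card A)) (e : commAut φ ⊤ = ⊤) :
    Nonempty (G ≃* QuaternionGroup 2) ∨
      (IsSpecial 2 G ∧ Nat.card G = 64 ∧ Nat.card {x : G // orderOf x = 2} = 3 ∧
        ∀ x : G, orderOf x = 2 → x ∈ center G) ∨
      (IsExtraspecial 2 G ∧ Nat.card G = 32 ∧ Nat.card {x : G // orderOf x = 2} = 11) := by
  by_cases hall : ∀ W : Subgroup G, W.Characteristic → IsMulCommutative W → W ≤ fixAut φ
  · have hs := (special_of_trivial_on_char_abelian hG φ (Nat.coprime_two_right.mpr hA) e hall).1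
    have h2 := pow_eq_one_of_isSpecial hs
    have h4 := h8 _ inferInstance ⟨inferInstance, h2⟩
    haveI : Nontrivial G := by
      by_contra hh
      haveI := not_nontrivial_iff_subsingleton.mp hh
      exact hna ⟨⟨fun _ _ => Subsingleton.elim _ _⟩⟩
    haveI := hG.center_nontrivial
    have h1 := Finite.one_lt_card (α := center G)
    obtain ⟨n, hn⟩ := card_eq_pow_of_isPGroup hG (center G)
    have : Nat.card (center G) = 2 ∨ Nat.card (center G) = 4 := by
      have : n ≤ 2 := by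
        rw [hn] at h4
        exact (Nat.pow_le_pow_iff_right (by norm_num : 1 < 2)).mp h4
      interval_cases n <;> omega
    rcases this with c | c
    · exact (extra_case h8 hna ⟨hs, c⟩ e).imp_right fun h => Or.inr ⟨⟨hs, c⟩, h⟩
    · exact Or.inr (Or.inl ⟨hs, Sp4.main ⟨h8, c, h2, hs.2.2, fun x =>
        hs.2.1 ▸ pow_mem_frattini hG x⟩ hG hA e⟩)
  push Not at hall
  obtain ⟨W, hW, hWc, hWf⟩ := hall
  obtain ⟨a, ha⟩ : ∃ a, ¬ ∀ x ∈ W, x ^ 2 = 1 → φ a x = x := by
    by_contra hh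
    push Not at hh
    exact hWf fun x hx a => aut_fix_abelian (Nat.coprime_two_right.mpr (odd_orderOf hA a))
      (hG.to_subgroup _) hWc (fun _ => Characteristic.apply_mem hW _) (hh a) x hx
  have hm : Mv (φ a) := ⟨hG, h8, odd_orderOf hA a, by
    haveI := om_normal W hWc
    obtain ⟨z, hz, z1, z2, zc⟩ := exists_central_order_p hG (N := om W hWc) fun h0 => ha
      fun x hx h2 => by
        have : x = 1 := mem_bot.mp (h0 ▸ (⟨hx, h2⟩ : x ∈ om W hWc))
        rw [this, map_one]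
    refine ⟨z, ⟨zc, z2⟩, fun e => ha fun x hx h2 => ?_⟩
    exact fix_four (om_elem W hWc).2 (h8 _ inferInstance (om_elem W hWc)) (odd_orderOf hA a)
      (fun v hv => ⟨Characteristic.apply_mem hW _ hv.1, by rw [← map_pow, hv.2, map_one]⟩)
      hz z1 e x ⟨hx, h2⟩⟩
  by_cases hc : centralMod 2 (omegaZ 2 G) ⊓ centralizer (centralMod 2 (omegaZ 2 G) : Set G) ≤
      omegaZ 2 G
  · obtain ⟨h1, h2⟩ := hm.sp4 hna hc
    exact Or.inr (Or.inl ⟨h2, h1.main hG hA e⟩)
  · exact (hna (hm.abelian hc (hm.fpf hA e hc))).elim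

end CfsgScn
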