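import Cfsg.Agent.H2.Sect
import Cfsg.Agent.H1.Basic

set_option autoImplicit false

namespace CfsgH2W
open Subgroup Cfsg CfsgL0 CfsgH2
open scoped commutatorElement

/-- The dihedral group of order 8 as a Heisenberg group. -/
structure Hs where
  a : Bool
  b : Bool
  c : Bool
deriving DecidableEq

instance : Fintype Hs := Fintype.ofEquiv (Bool × Bool × Bool)
  ⟨fun p => ⟨p.1, p.2.1, p.2.2⟩, fun h => (h.a, h.b, h.c), fun _ => rfl, fun _ => rfl⟩

instance : Mul Hs := ⟨fun x y => ⟨xor x.a y.a, xor x.b y.b, xor (xor x.c y.c) (x.a && y.b)⟩⟩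
instance : One Hs := ⟨⟨false, false, false⟩⟩
instance : Inv Hs := ⟨fun x => ⟨x.a, x.b, xor x.c (x.a && x.b)⟩⟩

instance : Group Hs := Group.ofLeftAxioms (by decide +kernel) (by decide +kernel) (by decide +kernel)

/-- The wreath product of the dihedral group of order 8 by a group of order 2. -/
@[ext] structure Wr where
  x : Hs
  y : Hs
  s : Bool
deriving DecidableEq

instance : Fintype Wr := Fintype.ofEquiv (Hs × Hs × Bool)
  ⟨fun p => ⟨p.1, p.2.1, p.2.2⟩, fun h => (h.x, h.y, h.s), fun _ => rfl, fun _ => rfl⟩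

instance : Mul Wr :=
  ⟨fun g h => ⟨g.x * cond g.s h.y h.x, g.y * cond g.s h.x h.y, xor g.s h.s⟩⟩
instance : One Wr := ⟨⟨1, 1, false⟩⟩
instance : Inv Wr := ⟨fun g => ⟨(cond g.s g.y g.x)⁻¹, (cond g.s g.x g.y)⁻¹, g.s⟩⟩

theorem mul_def (g h : Wr) :
    g * h = ⟨g.x * cond g.s h.y h.x, g.y * cond g.s h.x h.y, xor g.s h.s⟩ := rfl

instance : Group Wr := Group.ofLeftAxioms (by
    rintro ⟨a, b, _ | _⟩ ⟨c, d, _ | _⟩ ⟨e, f, _ | _⟩ <;> simp [mul_def, mul_assoc])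
  (by decide +kernel) (by decide +kernel)

theorem card_Wr : Nat.card Wr = 128 := by rw [Nat.card_eq_fintype_card]; decide +kernel

instance : SMul Hs (Bool × Bool) := ⟨fun g p => (xor g.b p.1, xor (xor g.c p.2) (g.a && p.1))⟩
instance : MulAction Hs (Bool × Bool) where
  one_smul := by decide +kernel
  mul_smul := by decide +kernel

instance : SMul Wr (Bool × Bool × Bool) :=
  ⟨fun g p => (xor g.s p.1, cond (xor g.s p.1) g.y g.x • p.2)⟩
theorem smul_def (g : Wr) (p : Bool × Bool × Bool) :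
    g • p = (xor g.s p.1, cond (xor g.s p.1) g.y g.x • p.2) := rfl
instance : MulAction Wr (Bool × Bool × Bool) where
  one_smul := by decide +kernel
  mul_smul := by
    rintro ⟨a, b, _ | _⟩ ⟨c, d, _ | _⟩ ⟨_ | _, p⟩ <;> simp [mul_def, smul_def, mul_smul]

theorem sylow_of_inj {X Ω : Type*} [Group X] [Fintype Ω] (h8 : Fintype.card Ω = 8)
    (f : X →* Equiv.Perm Ω) (hf : Function.Injective f) (hX : Nat.card X = 128)
    (T : Sylow 2 (Equiv.Perm (Fin 8))) : Nonempty (X ≃* (T : Subgroup (Equiv.Perm (Fin 8)))) := by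
  classical
  let g := (Fintype.equivFinOfCardEq h8).permCongrHom.toMonoidHom.comp f
  have hg : Function.Injective g := (Fintype.equivFinOfCardEq h8).permCongrHom.injective.comp hf
  have h1 : Nat.card g.range = 2 ^ (Nat.card (Equiv.Perm (Fin 8))).factorization 2 := by
    rw [← Nat.card_congr (MonoidHom.ofInjective hg).toEquiv, hX, Nat.card_perm, Nat.card_fin]
    decide +kernel
  exact ⟨(MonoidHom.ofInjective hg).trans (Sylow.equiv (Sylow.ofCard _ h1) T)⟩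

theorem sylow_Wr (T : Sylow 2 (Equiv.Perm (Fin 8))) :
    Nonempty (Wr ≃* (T : Subgroup (Equiv.Perm (Fin 8)))) := by
  refine sylow_of_inj (by decide) (MulAction.toPermHom Wr (Bool × Bool × Bool)) ?_ card_Wr T
  rw [injective_iff_map_eq_one]
  intro g hg
  have : ∀ g : Wr, (∀ p : Bool × Bool × Bool, g • p = p) → g = 1 := by decide +kernel
  exact this g fun p => DFunLike.congr_fun hg p

def V1 : Subgroup Wr where
  carrier := {g | g.s = false ∧ g.x.b = false ∧ g.y.b = false}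
  mul_mem' := by simp only [Set.mem_ofPred_eq]; decide +kernel
  one_mem' := by simp only [Set.mem_ofPred_eq]; decide +kernel
  inv_mem' := by simp only [Set.mem_ofPred_eq]; decide +kernel

def V2 : Subgroup Wr where
  carrier := {g | g.s = false ∧ g.x.a = false ∧ g.y.a = false}
  mul_mem' := by simp only [Set.mem_ofPred_eq]; decide +kernel
  one_mem' := by simp only [Set.mem_ofPred_eq]; decide +kernel
  inv_mem' := by simp only [Set.mem_ofPred_eq]; decide +kernel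

def W : Subgroup Wr where
  carrier := {g | g.s = false}
  mul_mem' := by simp only [Set.mem_ofPred_eq]; decide +kernel
  one_mem' := by simp only [Set.mem_ofPred_eq]; decide +kernel
  inv_mem' := by simp only [Set.mem_ofPred_eq]; decide +kernel

instance (g : Wr) : Decidable (g ∈ V1) :=
  inferInstanceAs (Decidable (g.s = false ∧ g.x.b = false ∧ g.y.b = false))
instance (g : Wr) : Decidable (g ∈ V2) :=
  inferInstanceAs (Decidable (g.s = false ∧ g.x.a = false ∧ g.y.a = false))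
instance (g : Wr) : Decidable (g ∈ W) := inferInstanceAs (Decidable (g.s = false))
instance (g : Wr) : Decidable (g ∈ V1 ⊓ V2) := inferInstanceAs (Decidable (g ∈ V1 ∧ g ∈ V2))

instance : V1.Normal := ⟨by decide +kernel⟩
instance : V2.Normal := ⟨by decide +kernel⟩

theorem card_V1 : Nat.card V1 = 16 := by rw [Nat.card_eq_fintype_card]; decide +kernel
theorem card_V2 : Nat.card V2 = 16 := by rw [Nat.card_eq_fintype_card]; decide +kernel
theorem card_W : Nat.card W = 64 := by rw [Nat.card_eq_fintype_card]; decide +kernel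
theorem card_W' : Nat.card (V1 ⊓ V2 : Subgroup Wr) = 4 := by
  rw [Nat.card_eq_fintype_card]; decide +kernel

theorem eq_V {V : Subgroup Wr} [hV : V.Normal] (h : IsElementaryAbelian 2 V)
    (h16 : Nat.card V = 16) : V = V1 ∨ V = V2 := by
  have h1 : ∀ x : Wr, x ^ 2 = 1 → (∀ g : Wr, x * (g * x * g⁻¹) = g * x * g⁻¹ * x) →
      x ∈ V1 ∨ x ∈ V2 := by decide +kernel
  have h2 : ∀ x y : Wr, x ∈ V1 → y ∈ V2 → x * y ∈ V1 ∨ x * y ∈ V2 → x ∈ V2 ∨ y ∈ V1 := by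
    decide +kernel
  have h3 : ∀ x ∈ V, x ∈ V1 ∨ x ∈ V2 := fun x hx => h1 x (h.2 x hx) fun g =>
    isMulCommutative_iff.1 h.1 _ hx _ (hV.conj_mem x hx g)
  by_cases h4 : V ≤ V1
  · exact Or.inl (eq_of_le_of_card_ge h4 (by rw [h16, card_V1]))
  · right
    obtain ⟨y, hy, hy1⟩ := SetLike.not_le_iff_exists.1 h4
    refine eq_of_le_of_card_ge (fun x hx => ?_) (by rw [h16, card_V2])
    rcases h3 x hx with hx1 | hx1
    · exact (h2 x y hx1 ((h3 y hy).resolve_left hy1) (h3 _ (mul_mem hx hy))).resolve_right hy1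
    · exact hx1

theorem ea_V1 : IsElementaryAbelian 2 V1 :=
  ⟨CfsgH2.isMulCommutative_iff.2 (by decide +kernel), by decide +kernel⟩
theorem ea_V2 : IsElementaryAbelian 2 V2 :=
  ⟨CfsgH2.isMulCommutative_iff.2 (by decide +kernel), by decide +kernel⟩

def u : Wr := ⟨⟨true, false, false⟩, 1, false⟩
def u' : Wr := ⟨1, ⟨true, false, false⟩, false⟩
def v : Wr := ⟨⟨false, true, false⟩, 1, false⟩
def v' : Wr := ⟨1, ⟨false, true, false⟩, false⟩
def sw : Wr := ⟨1, 1, true⟩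

theorem map_V (α : MulAut Wr) {V : Subgroup Wr} [hV : V.Normal] (h : IsElementaryAbelian 2 V)
    (h16 : Nat.card V = 16) : V.map α.toMonoidHom = V1 ∨ V.map α.toMonoidHom = V2 := by
  haveI := hV.map α.toMonoidHom α.surjective
  exact eq_V (isElementaryAbelian_map h _) (by rw [card_map_of_injective α.injective, h16])

def Fix (α : MulAut Wr) : Prop := (∀ x, α x ∈ V1 ↔ x ∈ V1) ∧ ∀ x, α x ∈ V2 ↔ x ∈ V2
def Swap (α : MulAut Wr) : Prop := (∀ x, α x ∈ V2 ↔ x ∈ V1) ∧ ∀ x, α x ∈ V1 ↔ x ∈ V2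

theorem fix_or_swap (α : MulAut Wr) : Fix α ∨ Swap α := by
  have key : ∀ {A B : Subgroup Wr}, A.map α.toMonoidHom = B → ∀ x, α x ∈ B ↔ x ∈ A :=
    fun h x => h ▸ mem_map_iff_mem (f := α.toMonoidHom) α.injective
  rcases map_V α ea_V1 card_V1 with h1 | h1 <;> rcases map_V α ea_V2 card_V2 with h2 | h2
  · exact absurd ((key h2 u).1 ((key h1 u).2 (by decide))) (by decide)
  · exact Or.inl ⟨key h1, key h2⟩
  · exact Or.inr ⟨key h1, key h2⟩
  · exact absurd ((key h2 u).1 ((key h1 u).2 (by decide))) (by decide)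

theorem of_gens (β : MulAut Wr) (h1 : β u * u⁻¹ ∈ V1 ⊓ V2) (h2 : β u' * u'⁻¹ ∈ V1 ⊓ V2)
    (h3 : β v * v⁻¹ ∈ V1 ⊓ V2) (h4 : β v' * v'⁻¹ ∈ V1 ⊓ V2) :
    ∀ w ∈ W, β w * w⁻¹ ∈ V1 ⊓ V2 ∧ β (β w) = w := by
  have e1 : ∀ x y : Wr, x * u⁻¹ ∈ V1 ⊓ V2 → y * v⁻¹ ∈ V1 ⊓ V2 → ⁅x, y⁆ = ⁅u, v⁆ := by
    simp only [commutatorElement_def]; decide +kernel
  have e2 : ∀ x y : Wr, x * u'⁻¹ ∈ V1 ⊓ V2 → y * v'⁻¹ ∈ V1 ⊓ V2 → ⁅x, y⁆ = ⁅u', v'⁆ := by
    simp only [commutatorElement_def]; decide +kernel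
  have f1 : β ⁅u, v⁆ = ⁅u, v⁆ := by rw [map_commutatorElement, e1 _ _ h1 h3]
  have f2 : β ⁅u', v'⁆ = ⁅u', v'⁆ := by rw [map_commutatorElement, e2 _ _ h2 h4]
  have e3 : ∀ c : Wr, c ∈ V1 ⊓ V2 → c = 1 ∨ c = ⁅u, v⁆ ∨ c = ⁅u', v'⁆ ∨ c = ⁅u, v⁆ * ⁅u', v'⁆ := by
    simp only [commutatorElement_def]; decide +kernel
  have f3 : ∀ c ∈ V1 ⊓ V2, β c = c := fun c hc => by
    rcases e3 c hc with rfl | rfl | rfl | rfl
    · simp
    · exact f1
    · exact f2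
    · rw [map_mul, f1, f2]
  let K : Subgroup Wr := ((QuotientGroup.mk' (V1 ⊓ V2)).comp β.toMonoidHom).eqLocus
    (QuotientGroup.mk' (V1 ⊓ V2))
  have hK : ∀ x, x ∈ K ↔ β x * x⁻¹ ∈ V1 ⊓ V2 := fun x => by
    rw [← div_eq_mul_inv, ← QuotientGroup.eq_iff_div_mem]; rfl
  have e4 : ∀ w : Wr, w ∈ W → (if w.x.b then v else 1)⁻¹ * ((if w.x.a then u else 1)⁻¹ *
      ((if w.y.b then v' else 1)⁻¹ * ((if w.y.a then u' else 1)⁻¹ * w))) ∈ V1 ⊓ V2 := by
    decide +kernel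
  have f4 : ∀ (b : Bool) (g : Wr), β g * g⁻¹ ∈ V1 ⊓ V2 → (if b then g else 1)⁻¹ ∈ K := by
    rintro (_ | _) g hg
    · simp
    · simpa using (hK g).2 hg
  intro w hw
  have f5 : w ∈ K := by
    have := (hK _).2 (by rw [f3 _ (e4 w hw), mul_inv_cancel]; exact one_mem _)
    rwa [mul_mem_cancel_left (f4 _ _ h3), mul_mem_cancel_left (f4 _ _ h1),
      mul_mem_cancel_left (f4 _ _ h4), mul_mem_cancel_left (f4 _ _ h2)] at this
  have f6 := (hK w).1 f5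
  refine ⟨f6, ?_⟩
  have f7 : β w = β w * w⁻¹ * w := by simp
  rw [f7, map_mul, f3 _ f6, f7, ← mul_assoc, ← f7, ← sq, ea_V1.2 _ f6.1, one_mul]

theorem Fix.exists {α : MulAut Wr} (h : Fix α) :
    ∃ m : Wr, ∀ w ∈ W, (MulAut.conj m * α) w * w⁻¹ ∈ V1 ⊓ V2 ∧
      (MulAut.conj m * α) ((MulAut.conj m * α) w) = w := by
  have e1 : ∀ x y : Wr, x ∈ V1 → x ∉ V2 → y ∈ V2 → y ∉ V1 → x * y = y * x →
      (x * u⁻¹ ∈ V1 ⊓ V2 ∧ y * v'⁻¹ ∈ V1 ⊓ V2) ∨ (x * u'⁻¹ ∈ V1 ⊓ V2 ∧ y * v⁻¹ ∈ V1 ⊓ V2) := by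
    decide +kernel
  have e2 : ∀ x y : Wr, x * u⁻¹ ∈ V1 ⊓ V2 → y * u⁻¹ ∈ V1 ⊓ V2 → x * y ∈ V2 := by decide +kernel
  have e3 : ∀ x y : Wr, x * u'⁻¹ ∈ V1 ⊓ V2 → y * u'⁻¹ ∈ V1 ⊓ V2 → x * y ∈ V2 := by decide +kernel
  have e4 : ∀ x : Wr, (x * u⁻¹ ∈ V1 ⊓ V2 → sw * x * sw⁻¹ * u'⁻¹ ∈ V1 ⊓ V2) ∧
      (x * u'⁻¹ ∈ V1 ⊓ V2 → sw * x * sw⁻¹ * u⁻¹ ∈ V1 ⊓ V2) ∧
      (x * v⁻¹ ∈ V1 ⊓ V2 → sw * x * sw⁻¹ * v'⁻¹ ∈ V1 ⊓ V2) ∧
      (x * v'⁻¹ ∈ V1 ⊓ V2 → sw * x * sw⁻¹ * v⁻¹ ∈ V1 ⊓ V2) := by decide +kernel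
  have a1 := e1 (α u) (α v') ((h.1 _).2 (by decide)) (mt (h.2 _).1 (by decide))
    ((h.2 _).2 (by decide)) (mt (h.1 _).1 (by decide))
    (by rw [← map_mul, ← map_mul]; exact congrArg _ (by decide))
  have a2 := e1 (α u') (α v) ((h.1 _).2 (by decide)) (mt (h.2 _).1 (by decide))
    ((h.2 _).2 (by decide)) (mt (h.1 _).1 (by decide))
    (by rw [← map_mul, ← map_mul]; exact congrArg _ (by decide))
  have a3 : α u * α u' ∉ V2 := by rw [← map_mul, h.2]; decide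
  rcases a1 with a1 | a1 <;> rcases a2 with a2 | a2
  · exact absurd (e2 _ _ a1.1 a2.1) a3
  · exact ⟨1, by simpa using of_gens α a1.1 a2.1 a2.2 a1.2⟩
  · exact ⟨sw, of_gens _ ((e4 _).2.1 a1.1) ((e4 _).1 a2.1) ((e4 _).2.2.2 a2.2) ((e4 _).2.2.1 a1.2)⟩
  · exact absurd (e3 _ _ a1.1 a2.1) a3

instance (g : Wr) : Decidable (g ∈ center Wr) :=
  decidable_of_iff (∀ h, h * g = g * h) mem_center_iff.symm

theorem card_center_Wr : Nat.card (center Wr) = 2 := by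
  rw [Nat.card_eq_fintype_card]; decide +kernel

theorem mem_W_iff (g : Wr) : g ∈ W ↔ ∀ c, c ∈ V1 → c ∈ V2 → c * g = g * c := by
  revert g; decide +kernel

theorem map_mem_W (α : MulAut Wr) (g : Wr) : α g ∈ W ↔ g ∈ W := by
  rw [mem_W_iff, mem_W_iff, α.surjective.forall]
  simp only [← map_mul, α.injective.eq_iff]
  rcases fix_or_swap α with h | h
  · simp only [h.1, h.2]
  · simp only [h.1, h.2]; exact forall_congr' fun _ => forall_comm

/-- Eight elements of order four permuted by all automorphisms. -/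
def Om : SubMulAction (MulAut Wr) Wr where
  carrier := {g | g ∉ W ∧ g ^ 2 ≠ 1 ∧ g ^ 2 ∈ center Wr}
  smul_mem' := by
    rintro α g ⟨h1, h2, h3⟩
    refine ⟨mt (map_mem_W α g).1 h1, ?_, ?_⟩
    · rwa [MulAut.smul_def, ← map_pow, Ne, MulEquiv.map_eq_one_iff]
    · rw [MulAut.smul_def, ← map_pow, mem_center_iff, α.surjective.forall]
      intro h
      rw [← map_mul, mem_center_iff.1 h3, map_mul]

instance (g : Wr) : Decidable (g ∈ Om) :=
  inferInstanceAs (Decidable (g ∉ W ∧ g ^ 2 ≠ 1 ∧ g ^ 2 ∈ center Wr))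

theorem card_Om : Fintype.card Om = 8 := by decide +kernel

theorem fix_of_Om {α : MulAut Wr} (h : ∀ g ∈ Om, α g = g) : Fix α := by
  refine (fix_or_swap α).resolve_right fun hs => ?_
  have : α (u * u') = u * u' := by
    rw [show u * u' = ⟨⟨false, false, true⟩, 1, true⟩ * ⟨⟨true, false, false⟩, ⟨true, false, true⟩, true⟩
      by decide, map_mul, h _ (by decide +kernel), h _ (by decide +kernel)]
  exact absurd (this ▸ (hs.1 (u * u')).2 (by decide)) (by decide)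

theorem center_of_Om : ∀ m : Wr, (∀ g : Wr, g ∈ Om → m * g * m⁻¹ = g) → m ∈ center Wr := by
  decide +kernel

theorem cent_W : ∀ m : Wr, (∀ g : Wr, g ∈ W → m * g * m⁻¹ = g) → m ∈ V1 ⊓ V2 := by
  decide +kernel

theorem elem_W : ∀ x : Wr, x ∈ W → x ^ 2 ∈ V1 ⊓ V2 ∧ ∀ y, y ∈ W → x * y * x⁻¹ * y⁻¹ ∈ V1 ⊓ V2 := by
  decide +kernel

end CfsgH2W
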